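import Mathlib
import Cfsg.Agent.Lib.Element

/-!
Counting the conjugacy classes of `σ`-elements of a finite group: covering bounds, the Sylow
bound, and an orbit-counting lemma.
-/

set_option autoImplicit false

namespace Cfsg.Agent.ManyPi

open Subgroup

variable {G : Type*} [Group G]

/-- All prime divisors of the order of `g` lie in `σ`. -/
def SEl (σ : Finset ℕ) (g : G) : Prop := ∀ q : ℕ, q.Prime → q ∣ orderOf g → q ∈ σ

/-- The classes of `σ`-elements. -/
def kSet (σ : Finset ℕ) (G : Type*) [Group G] : Set (ConjClasses G) :=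
  ConjClasses.mk '' {g : G | SEl σ g}

/-- The number of classes of `σ`-elements. -/
noncomputable def kc (σ : Finset ℕ) (G : Type*) [Group G] : ℕ := (kSet σ G).ncard

/-- The `σ`-part of a natural number. -/
noncomputable def part (σ : Finset ℕ) (n : ℕ) : ℕ := ∏ q ∈ σ, q ^ n.factorization q

theorem part_pos {σ : Finset ℕ} (hσ : ∀ q ∈ σ, q.Prime) (n : ℕ) : 0 < part σ n :=
  Finset.prod_pos fun q hq => pow_pos (hσ q hq).pos _

theorem orderOf_conj (x g : G) : orderOf (x * g * x⁻¹) = orderOf g :=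
  orderOf_injective (MulAut.conj x).toMonoidHom (MulAut.conj x).injective g

theorem mk_conj (x g : G) : ConjClasses.mk (x * g * x⁻¹) = ConjClasses.mk g :=
  ConjClasses.mk_eq_mk_iff_isConj.2 (isConj_iff.2 ⟨x⁻¹, by group⟩)

theorem exists_conj_of_mk_eq {g h : G} (e : ConjClasses.mk g = ConjClasses.mk h) :
    ∃ x : G, x * g * x⁻¹ = h :=
  isConj_iff.1 (ConjClasses.mk_eq_mk_iff_isConj.1 e)

theorem SEl.of_mk_eq {σ : Finset ℕ} {g h : G} (e : ConjClasses.mk g = ConjClasses.mk h)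
    (hg : SEl σ g) : SEl σ h := by
  obtain ⟨x, rfl⟩ := exists_conj_of_mk_eq e
  intro q hq hd
  exact hg q hq (orderOf_conj x g ▸ hd)

theorem mem_kSet {σ : Finset ℕ} {g : G} : ConjClasses.mk g ∈ kSet σ G ↔ SEl σ g :=
  ⟨fun ⟨_, hh, e⟩ => SEl.of_mk_eq e hh, fun h => ⟨g, h, rfl⟩⟩

theorem SEl.subtype {σ : Finset ℕ} {H : Subgroup G} {g : G} (hg : g ∈ H) :
    SEl σ (⟨g, hg⟩ : H) ↔ SEl σ g := by
  simp only [SEl, Subgroup.orderOf_mk]

/-- `g` has `q`-power order. -/
def QEl (q : ℕ) (g : G) : Prop := ∃ i, orderOf g = q ^ i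

theorem sel_singleton [Finite G] {q : ℕ} (hq : q.Prime) {g : G} : SEl {q} g ↔ QEl q g := by
  constructor
  · intro h
    refine ⟨(orderOf g).primeFactorsList.length, ?_⟩
    refine Nat.eq_prime_pow_of_unique_prime_dvd (orderOf_pos g).ne' ?_
    exact fun {d} hd hdg => Finset.mem_singleton.1 (h d hd hdg)
  · rintro ⟨i, hi⟩ d hd hdg
    exact Finset.mem_singleton.2
      ((Nat.prime_dvd_prime_iff_eq hd hq).1 (hd.dvd_of_dvd_pow (hi ▸ hdg)))

theorem QEl.conj {q : ℕ} {g : G} (h : QEl q g) (x : G) : QEl q (x * g * x⁻¹) := by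
  obtain ⟨i, hi⟩ := h
  exact ⟨i, (orderOf_conj x g).trans hi⟩

theorem qEl_of_mem {q : ℕ} [Fact q.Prime] {S : Subgroup G} (hS : IsPGroup q S) {g : G}
    (hg : g ∈ S) : QEl q g :=
  Element.orderOf_eq_pow_of_mem_isPGroup hS hg

/-! ### Covering -/

theorem ncard_cover_le {α ι : Type*} [Finite α] [Finite ι] {T : Set α} {I : Set ι}
    (f : ι → Set α) (c : ℕ) (hc : ∀ i ∈ I, (f i).ncard ≤ c) (h : ∀ a ∈ T, ∃ i ∈ I, a ∈ f i) :
    T.ncard ≤ I.ncard * c := by
  classical
  have hI := I.toFinite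
  calc T.ncard ≤ (⋃ i ∈ hI.toFinset, f i).ncard := by
        refine Set.ncard_le_ncard (fun a ha => ?_) (Set.toFinite _)
        obtain ⟨i, hi, hai⟩ := h a ha
        exact Set.mem_biUnion (hI.mem_toFinset.2 hi) hai
    _ ≤ ∑ i ∈ hI.toFinset, (f i).ncard := Finset.set_ncard_biUnion_le _ _
    _ ≤ ∑ _i ∈ hI.toFinset, c := Finset.sum_le_sum fun i hi => hc i (hI.mem_toFinset.1 hi)
    _ = I.ncard * c := by
        rw [Finset.sum_const, smul_eq_mul, Set.ncard_eq_toFinset_card I hI]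

/-! ### Sylow subgroups of subgroups -/

/-- `S` is a Sylow `q`-subgroup of the subgroup `C`. -/
def SylIn (q : ℕ) (S C : Subgroup G) : Prop :=
  S ≤ C ∧ Nat.card S = q ^ (Nat.card C).factorization q

theorem SylIn.isPGroup {q : ℕ} [Fact q.Prime] {S C : Subgroup G} (h : SylIn q S C) :
    IsPGroup q S := IsPGroup.of_card h.2

theorem exists_sylIn_ge [Finite G] {q : ℕ} [Fact q.Prime] {C T : Subgroup G} (hT : T ≤ C)
    (hTq : IsPGroup q T) : ∃ S, SylIn q S C ∧ T ≤ S := by
  have hT' : IsPGroup q (T.subgroupOf C) := hTq.of_equiv (subgroupOfEquivOfLe hT).symm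
  obtain ⟨P, hP⟩ := hT'.exists_le_sylow
  refine ⟨(P : Subgroup C).map C.subtype, ⟨map_subtype_le _, ?_⟩, ?_⟩
  · rw [← Nat.card_congr (equivMapOfInjective _ _ C.subtype_injective).toEquiv]
    exact P.card_eq_multiplicity
  · calc T = (T.subgroupOf C).map C.subtype := (map_subgroupOf_eq_of_le hT).symm
      _ ≤ _ := map_mono hP

theorem exists_sylIn [Finite G] {q : ℕ} [Fact q.Prime] (C : Subgroup G) : ∃ S, SylIn q S C :=
  let ⟨S, hS, _⟩ := exists_sylIn_ge (q := q) (bot_le : (⊥ : Subgroup G) ≤ C) IsPGroup.of_bot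
  ⟨S, hS⟩

theorem SylIn.exists_conj [Finite G] {q : ℕ} [Fact q.Prime] {C S T : Subgroup G}
    (hS : SylIn q S C) (hT : T ≤ C) (hTq : IsPGroup q T) :
    ∃ c ∈ C, ∀ t ∈ T, c * t * c⁻¹ ∈ S := by
  have hcard : Nat.card (S.subgroupOf C) = q ^ (Nat.card C).factorization q := by
    rw [Nat.card_congr (subgroupOfEquivOfLe hS.1).toEquiv, hS.2]
  let S' : Sylow q C := Sylow.ofCard (S.subgroupOf C) hcard
  have hT' : IsPGroup q (T.subgroupOf C) := hTq.of_equiv (subgroupOfEquivOfLe hT).symm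
  obtain ⟨P, hP⟩ := hT'.exists_le_sylow
  obtain ⟨c, hc⟩ := MulAction.exists_smul_eq C P S'
  refine ⟨c, c.2, fun t ht => ?_⟩
  have htP : (⟨t, hT ht⟩ : C) ∈ (P : Subgroup C) := hP ht
  have h2 : c * ⟨t, hT ht⟩ * c⁻¹ ∈ ((c • P : Sylow q C) : Subgroup C) := by
    rw [Sylow.coe_subgroup_smul]
    exact Subgroup.smul_mem_pointwise_smul _ (MulAut.conj c) _ htP
  rw [hc] at h2
  exact h2

theorem SylIn.exists_conj_mem [Finite G] {q : ℕ} [Fact q.Prime] {C S : Subgroup G}
    (hS : SylIn q S C) {y : G} (hy : y ∈ C) (hyq : QEl q y) :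
    ∃ c ∈ C, c * y * c⁻¹ ∈ S := by
  obtain ⟨c, hc, h⟩ := hS.exists_conj (zpowers_le.2 hy) (Element.isPGroup_zpowers_iff.2 hyq)
  exact ⟨c, hc, h y (mem_zpowers y)⟩

theorem pow_le_pow_factorization [Finite G] {q : ℕ} (hq : q.Prime) (C : Subgroup G) :
    (Nat.card C).factorization q ≤ (Nat.card G).factorization q :=
  (Nat.factorization_le_iff_dvd Nat.card_pos.ne' Nat.card_pos.ne').2 C.card_subgroup_dvd_card q

theorem SylIn.full [Finite G] {q : ℕ} (hq : q.Prime) {S C : Subgroup G} (hS : S ≤ C)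
    (hcard : Nat.card S = q ^ (Nat.card G).factorization q) :
    SylIn q S C ∧ q ^ (Nat.card G).factorization q ∣ Nat.card C := by
  have hd : q ^ (Nat.card G).factorization q ∣ Nat.card C := hcard ▸ card_dvd_of_le hS
  refine ⟨⟨hS, ?_⟩, hd⟩
  rw [hcard, le_antisymm (pow_le_pow_factorization hq C)
    ((hq.pow_dvd_iff_le_factorization Nat.card_pos.ne').1 hd)]

theorem SylIn.top [Finite G] {q : ℕ} {S : Subgroup G}
    (hcard : Nat.card S = q ^ (Nat.card G).factorization q) : SylIn q S ⊤ :=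
  ⟨le_top, by rw [hcard, card_top]⟩

theorem exists_full [Finite G] (q : ℕ) [hq : Fact q.Prime] :
    ∃ S : Subgroup G, Nat.card S = q ^ (Nat.card G).factorization q :=
  let ⟨P⟩ := (inferInstance : Nonempty (Sylow q G))
  ⟨P, P.card_eq_multiplicity⟩

/-- The element `g` is the commuting product of its `q'`-part and its `q`-part. -/
theorem exists_split [Finite G] {σ : Finset ℕ} {q : ℕ} (hq : q.Prime) {g : G}
    (hg : SEl (insert q σ) g) :
    ∃ x y : G, Commute x y ∧ g = x * y ∧ SEl σ x ∧ QEl q y := by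
  refine ⟨Element.pComplPart q g, Element.pPart q g, (Element.commute_pPart_pComplPart q g).symm,
    ?_, ?_, _, Element.orderOf_pPart_eq_pow hq g⟩
  · rw [← (Element.commute_pPart_pComplPart q g).eq, Element.pPart_mul_pComplPart]
  · intro d hd hdx
    have h1 : d ∣ orderOf g := hdx.trans
      (Subgroup.mem_zpowers_iff.1 (Element.pComplPart_mem_zpowers q g) |>.elim fun k hk =>
        hk ▸ orderOf_dvd_of_pow_eq_one
          (by rw [← zpow_natCast, ← zpow_mul, mul_comm, zpow_mul, zpow_natCast,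
            pow_orderOf_eq_one, one_zpow]))
    refine (Finset.mem_insert.1 (hg d hd h1)).resolve_left fun e => ?_
    have := (Element.coprime_orderOf_pComplPart hq g).coprime_dvd_left hdx
    rw [e, Nat.coprime_self] at this
    exact hq.one_lt.ne' this

theorem kSet_finite [Finite G] (σ : Finset ℕ) : (kSet σ G).Finite := Set.toFinite _

theorem kc_empty [Finite G] : kc (∅ : Finset ℕ) G = 1 := by
  have : kSet (∅ : Finset ℕ) G = {ConjClasses.mk 1} := by
    ext C
    obtain ⟨g, rfl⟩ := ConjClasses.mk_surjective C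
    rw [mem_kSet, Set.mem_singleton_iff]
    constructor
    · intro h
      suffices g = 1 by rw [this]
      rw [← orderOf_eq_one_iff]
      by_contra hne
      obtain ⟨q, hq, hd⟩ := Nat.exists_prime_and_dvd hne
      exact (Finset.notMem_empty q) (h q hq hd)
    · intro h
      exact SEl.of_mk_eq h.symm fun q hq hd => absurd (Nat.dvd_one.1 (orderOf_one (G := G) ▸ hd))
        hq.ne_one
  rw [kc, this, Set.ncard_singleton]

theorem kc_insert_le [Finite G] {σ : Finset ℕ} {q : ℕ} (hq : q.Prime) :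
    kc (insert q σ) G ≤ kc σ G * q ^ (Nat.card G).factorization q := by
  haveI := Fact.mk hq
  classical
  choose S hS using fun X : ConjClasses G =>
    exists_sylIn (q := q) (centralizer ({Quotient.out X} : Set G))
  refine ncard_cover_le (fun X => (fun y => ConjClasses.mk (Quotient.out X * y)) '' (S X : Set G)) _
    (fun X _ => ?_) ?_
  · refine (Set.ncard_image_le (Set.toFinite _)).trans ?_
    rw [← Nat.card_coe_set_eq]
    show Nat.card (S X) ≤ _
    rw [(hS X).2]
    exact Nat.pow_le_pow_right hq.pos (pow_le_pow_factorization hq _)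
  · rintro _ ⟨g, hg, rfl⟩
    obtain ⟨x, y, hc, rfl, hx, hy⟩ := exists_split hq hg
    refine ⟨ConjClasses.mk x, mem_kSet.2 hx, ?_⟩
    obtain ⟨u, hu⟩ := exists_conj_of_mk_eq (g := x) (h := Quotient.out (ConjClasses.mk x))
      (Quotient.out_eq (ConjClasses.mk x)).symm
    have hy' : u * y * u⁻¹ ∈ centralizer ({Quotient.out (ConjClasses.mk x)} : Set G) :=
      mem_centralizer_singleton_iff.2 (hu ▸ ((hc.map (MulAut.conj u).toMonoidHom).symm.eq))
    obtain ⟨c, hcC, hcy⟩ := (hS (ConjClasses.mk x)).exists_conj_mem hy' (hy.conj u)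
    refine ⟨_, hcy, ?_⟩
    show ConjClasses.mk (Quotient.out (ConjClasses.mk x) * (c * (u * y * u⁻¹) * c⁻¹)) = _
    have hcC' := mem_centralizer_singleton_iff.1 hcC
    rw [← mk_conj (c * u) (x * y), ← hu]
    congr 1
    rw [← hu] at hcC'
    calc u * x * u⁻¹ * (c * (u * y * u⁻¹) * c⁻¹)
        = (u * x * u⁻¹ * c) * (u * y * u⁻¹) * c⁻¹ := by group
      _ = (c * (u * x * u⁻¹)) * (u * y * u⁻¹) * c⁻¹ := by rw [hcC']
      _ = c * u * (x * y) * (c * u)⁻¹ := by group

theorem kc_union_le [Finite G] {τ ρ : Finset ℕ} (hρ : ∀ q ∈ ρ, q.Prime) :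
    kc (τ ∪ ρ) G ≤ kc τ G * part ρ (Nat.card G) := by
  classical
  induction ρ using Finset.induction_on with
  | empty => simp [part]
  | @insert q ρ hq ih =>
    rw [Finset.union_insert, part, Finset.prod_insert hq]
    refine (kc_insert_le (hρ q (Finset.mem_insert_self q ρ))).trans ?_
    rw [mul_comm (q ^ _), ← mul_assoc]
    exact Nat.mul_le_mul_right _ (ih fun d hd => hρ d (Finset.mem_insert_of_mem hd))

theorem kc_le_part [Finite G] {σ : Finset ℕ} (hσ : ∀ q ∈ σ, q.Prime) :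
    kc σ G ≤ part σ (Nat.card G) := by
  simpa [kc_empty] using kc_union_le (G := G) (τ := ∅) hσ

theorem kc_singleton_le_classes [Finite G] {q : ℕ} [hq : Fact q.Prime] {S : Subgroup G}
    (hS : Nat.card S = q ^ (Nat.card G).factorization q) :
    kc {q} G ≤ Nat.card (ConjClasses S) := by
  refine (Set.ncard_le_ncard (t := Set.range fun X : ConjClasses S =>
    ConjClasses.map S.subtype X) ?_ (Set.toFinite _)).trans ?_
  · rintro _ ⟨g, hg, rfl⟩
    obtain ⟨c, -, hc⟩ := (SylIn.top hS).exists_conj_mem (mem_top g) ((sel_singleton hq.out).1 hg)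
    exact ⟨ConjClasses.mk ⟨_, hc⟩, mk_conj c g⟩
  · rw [← Nat.card_coe_set_eq]
    exact Finite.card_range_le _

/-! ### Orbit counting -/

theorem image_count {α β : Type*} {A F : Set α} (hA : A.Finite) (f : α → β) (c : ℕ)
    (h : ∀ a ∈ A, (∃ a' ∈ A, a' ∈ F ∧ f a' = f a) ∨ c ≤ {a' ∈ A | f a' = f a}.ncard) :
    c * (f '' A).ncard ≤ A.ncard + (c - 1) * (A ∩ F).ncard := by
  classical
  obtain ⟨s, rfl⟩ := hA.exists_finset_coe
  rw [← Finset.coe_image, Set.ncard_coe_finset, Set.ncard_coe_finset,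
    show ((s : Set α) ∩ F) = ↑(s.filter fun a => a ∈ F) by ext; simp, Set.ncard_coe_finset,
    Finset.card_eq_sum_card_image f s,
    Finset.card_eq_sum_card_fiberwise (f := f) (t := s.image f) (s := s.filter fun a => a ∈ F)
      fun a ha => Finset.mem_image_of_mem f (Finset.mem_filter.1 ha).1,
    Finset.mul_sum, ← Finset.sum_add_distrib, mul_comm c, ← smul_eq_mul, ← Finset.sum_const]
  refine Finset.sum_le_sum fun b hb => ?_
  obtain ⟨a, ha, rfl⟩ := Finset.mem_image.1 hb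
  rcases h a ha with ⟨a', ha', haF, e⟩ | h2
  · have h1 : 1 ≤ (s.filter fun x => f x = f a).card :=
      Finset.card_pos.2 ⟨a, Finset.mem_filter.2 ⟨ha, rfl⟩⟩
    have h3 : 1 ≤ ((s.filter fun x => x ∈ F).filter fun x => f x = f a).card :=
      Finset.card_pos.2 ⟨a', Finset.mem_filter.2 ⟨Finset.mem_filter.2 ⟨ha', haF⟩, e⟩⟩
    have := Nat.mul_le_mul_left (c - 1) h3
    omega
  · rw [show {a' ∈ (s : Set α) | f a' = f a} = ↑(s.filter fun x => f x = f a) by ext; simp,
      Set.ncard_coe_finset] at h2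
    omega

theorem image_count_two {α β : Type*} {A : Set α} (hA : A.Finite) (f : α → β) (g : α → α)
    (hg : ∀ a ∈ A, g a ∈ A) (hf : ∀ a ∈ A, f (g a) = f a) :
    2 * (f '' A).ncard ≤ A.ncard + (A ∩ {a | g a = a}).ncard := by
  refine (image_count (F := {a | g a = a}) hA f 2 fun a ha => ?_).trans (by simp)
  by_cases h : g a = a
  · exact .inl ⟨a, ha, h, rfl⟩
  · refine .inr ?_
    rw [← Set.ncard_pair h]
    exact Set.ncard_le_ncard
      (by rintro x (rfl | rfl); exacts [⟨hg a ha, hf a ha⟩, ⟨ha, rfl⟩])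
      (hA.subset fun x hx => hx.1)

theorem le_fibre {α β : Type*} {A : Set α} (hA : A.Finite) (f : α → β) (g : α → α)
    {r n : ℕ} (hr : r.Prime) (hgn : ∀ a, g^[r ^ n] a = a)
    (hg : ∀ a ∈ A, g a ∈ A) (hf : ∀ a ∈ A, f (g a) = f a) {a : α} (ha : a ∈ A) (h : g a ≠ a) :
    r ≤ {a' ∈ A | f a' = f a}.ncard := by
  have hd : Function.minimalPeriod g a ∣ r ^ n :=
    Function.IsPeriodicPt.minimalPeriod_dvd (hgn a)
  have hne : Function.minimalPeriod g a ≠ 1 := fun e =>
    h (Function.minimalPeriod_eq_one_iff_isFixedPt.1 e)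
  have hle : r ≤ Function.minimalPeriod g a := by
    obtain ⟨i, -, hi⟩ := (Nat.dvd_prime_pow hr).1 hd
    rw [hi] at hne ⊢
    exact Nat.le_self_pow (fun e => hne (by rw [e, pow_zero])) r
  have hit : ∀ i : ℕ, g^[i] a ∈ A ∧ f (g^[i] a) = f a := by
    intro i
    induction i with
    | zero => exact ⟨ha, rfl⟩
    | succ i ih =>
      rw [Function.iterate_succ_apply']
      exact ⟨hg _ ih.1, (hf _ ih.1).trans ih.2⟩
  calc r = ((fun i => g^[i] a) '' Set.Iio r).ncard := by
        have hinj : Set.InjOn (fun i => g^[i] a) (Set.Iio r) :=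
          Function.iterate_injOn_Iio_minimalPeriod.mono (Set.Iio_subset_Iio hle)
        rw [hinj.ncard_image, ← Finset.coe_Iio, Set.ncard_coe_finset, Nat.card_Iio]
    _ ≤ _ := Set.ncard_le_ncard (by rintro _ ⟨i, -, rfl⟩; exact hit i)
        (hA.subset fun x hx => hx.1)

theorem image_count_prime {α β : Type*} {A : Set α} (hA : A.Finite) (f : α → β) (g : α → α)
    {r n : ℕ} (hr : r.Prime) (hgn : ∀ a, g^[r ^ n] a = a)
    (hg : ∀ a ∈ A, g a ∈ A) (hf : ∀ a ∈ A, f (g a) = f a) :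
    r * (f '' A).ncard ≤ A.ncard + (r - 1) * (A ∩ {a | g a = a}).ncard := by
  refine image_count (F := {a | g a = a}) hA f r fun a ha => ?_
  by_cases h : g a = a
  · exact .inl ⟨a, ha, h, rfl⟩
  · exact .inr (le_fibre hA f g hr hgn hg hf ha h)

end Cfsg.Agent.ManyPi
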