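import Cfsg.Agent.ManyPi.Main
import Cfsg.Agent.Char.Linear
import Cfsg.Agent.Char.Integrality

/-!
The derived subgroup of the nilpotent Hall subgroup, and the translation to sets of primes.
-/

set_option autoImplicit false

namespace Cfsg.Agent.ManyPi

open Subgroup
open scoped commutatorElement

universe u

/-- Degree squares: `(k - |P : P'|) p² + |P : P'| ≤ |P|`. -/
theorem classes_commutator_bound {P : Type u} [Group P] [Finite P] {p : ℕ} [hp : Fact p.Prime]
    (hP : IsPGroup p P) :
    p ^ 2 * Nat.card (ConjClasses P) ≤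
      Nat.card P + (p ^ 2 - 1) * (commutator P).index := by
  classical
  letI := Fintype.ofFinite P
  rw [← Char.card_irr_eq_card_conjClasses, ← Char.card_linear_irr]
  choose d hd0 hd hdvd using fun χ : IrrCharacter P => Char.irr_degree_dvd_card χ.2
  have hsum : ∑ χ : IrrCharacter P, d χ ^ 2 = Nat.card P := by
    have h := Char.sum_irr_degree_sq (G := P)
    have h' : ((∑ χ : IrrCharacter P, d χ ^ 2 : ℕ) : ℂ) = (Nat.card P : ℂ) := by
      rw [← h]; push_cast
      exact Finset.sum_congr rfl fun χ _ => by rw [hd χ]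
    exact_mod_cast h'
  have e1 : Nat.card (IrrCharacter P) = ∑ _χ : IrrCharacter P, 1 := by
    rw [Nat.card_eq_fintype_card, ← Finset.card_univ, Finset.card_eq_sum_ones]
  have e2 : Nat.card {χ : IrrCharacter P // (χ : P → ℂ) 1 = 1} =
      ∑ χ : IrrCharacter P, if (χ : P → ℂ) 1 = 1 then 1 else 0 := by
    rw [Nat.card_eq_fintype_card, Fintype.card_subtype, Finset.card_eq_sum_ones,
      Finset.sum_filter]
  rw [e1, e2, ← hsum, Finset.mul_sum, Finset.mul_sum, ← Finset.sum_add_distrib]
  refine Finset.sum_le_sum fun χ _ => ?_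
  have h1 : 1 ≤ p ^ 2 := Nat.one_le_pow _ _ hp.out.pos
  rw [mul_one]
  by_cases hc : (χ : P → ℂ) 1 = 1
  · rw [if_pos hc, mul_one]
    have : d χ = 1 := by exact_mod_cast (hd χ).symm.trans hc
    rw [this]; omega
  · rw [if_neg hc]
    obtain ⟨n, hn⟩ := IsPGroup.iff_card.1 hP
    obtain ⟨i, -, hi⟩ := (Nat.dvd_prime_pow hp.out).1 (hn ▸ hdvd χ)
    have hi0 : i ≠ 0 := fun e => hc (by rw [hd χ, hi, e]; simp)
    have : p ≤ d χ := hi ▸ Nat.le_self_pow hi0 p
    exact (Nat.pow_le_pow_left this 2).trans (Nat.le_add_right _ _)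

theorem card_commutator_le_of_many {P : Type u} [Group P] [Finite P] {p : ℕ} [hp : Fact p.Prime]
    (hP : IsPGroup p P) (h : Nat.card P < p * Nat.card (ConjClasses P)) :
    Nat.card (commutator P) ≤ p := by
  obtain ⟨i, hi⟩ := IsPGroup.iff_card.1 (hP.to_subgroup (commutator P))
  by_contra hlt
  push Not at hlt
  have hi2 : 2 ≤ i := by
    by_contra h'
    have := Nat.pow_le_pow_right hp.out.pos (show i ≤ 1 by omega)
    rw [pow_one, ← hi] at this
    omega
  have h2 : p ^ 2 * (commutator P).index ≤ Nat.card P := by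
    rw [← card_mul_index (commutator P), hi]
    exact Nat.mul_le_mul_right _ (Nat.pow_le_pow_right hp.out.pos hi2)
  have h1 := classes_commutator_bound hP
  have := hp.out.two_le
  have h3 : (p ^ 2 - 1) * (commutator P).index + (commutator P).index ≤ Nat.card P := by
    rw [← Nat.succ_mul, Nat.succ_eq_add_one, Nat.sub_add_cancel (Nat.one_le_pow _ _ hp.out.pos)]
    exact h2
  nlinarith [Nat.mul_le_mul_right (Nat.card (ConjClasses P)) (Nat.mul_le_mul_left p this)]

variable {G : Type u} [Group G]

theorem exists_hall_derived [Finite G] {π : Set ℕ} (hπ : ∀ q ∈ π, q.Prime) {p : ℕ} (hp : p ∈ π)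
    (hmin : ∀ q ∈ π, p ≤ q) {m : ℕ} (hm : m ∣ Nat.card G)
    (hmπ : ∀ q : ℕ, q.Prime → q ∣ m → q ∈ π) (hm' : ∀ q ∈ π, ¬ q ∣ Nat.card G / m)
    {k : ℕ}
    (hk : k = Nat.card {C : ConjClasses G //
      ∀ q : ℕ, q.Prime → (∃ g : G, ConjClasses.mk g = C ∧ q ∣ orderOf g) → q ∈ π})
    (hmany : m < p * k) :
    ∃ H : Subgroup G, Nat.card H = m ∧ Group.IsNilpotent H ∧
      Nat.card (commutator H) ≤ p ∧
      (m * (p ^ 2 + p - 1) < p ^ 3 * k → IsMulCommutative H) := by
  classical
  haveI hpF := Fact.mk (hπ p hp)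
  have hm0 : m ≠ 0 := fun e => by
    rw [e, zero_dvd_iff] at hm; exact Nat.card_pos.ne' hm
  set σ := m.primeFactors with hσdef
  have hσ : ∀ q ∈ σ, q.Prime := fun q hq => Nat.prime_of_mem_primeFactors hq
  have hσπ : ∀ q ∈ σ, q ∈ π := fun q hq =>
    hmπ q (hσ q hq) (Nat.dvd_of_mem_primeFactors hq)
  have hpσ : ∀ q ∈ σ, p ≤ q := fun q hq => hmin q (hσπ q hq)
  have hfull : ∀ q ∈ σ, (Nat.card G).factorization q = m.factorization q := by
    intro q hq
    obtain ⟨j, hj⟩ := hm
    have hj0 : j ≠ 0 := fun e => Nat.card_pos.ne' (by rw [hj, e, mul_zero])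
    have hdiv : Nat.card G / m = j := by
      rw [hj, Nat.mul_div_cancel_left j (Nat.pos_of_ne_zero hm0)]
    rw [hj, Nat.factorization_mul hm0 hj0, Finsupp.add_apply,
      Nat.factorization_eq_zero_of_not_dvd (n := j) (p := q) (hdiv ▸ hm' q (hσπ q hq)), add_zero]
  have hpart : part σ (Nat.card G) = m := by
    rw [part, Finset.prod_congr rfl fun q hq => by rw [hfull q hq]]
    exact Nat.prod_factorization_pow_eq_self hm0
  have hset : {C : ConjClasses G | ∀ q : ℕ, q.Prime →
      (∃ g : G, ConjClasses.mk g = C ∧ q ∣ orderOf g) → q ∈ π} = kSet σ G := by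
    ext C
    obtain ⟨g, rfl⟩ := ConjClasses.mk_surjective C
    rw [mem_kSet]
    constructor
    · intro h q hq hd
      refine Nat.mem_primeFactors.2 ⟨hq, ?_, hm0⟩
      have hqπ := h q hq ⟨g, rfl, hd⟩
      have hG : q ∣ Nat.card G := hd.trans (orderOf_dvd_natCard g)
      rw [← Nat.mul_div_cancel' hm] at hG
      exact ((hq.dvd_mul).1 hG).resolve_right (hm' q hqπ)
    · rintro h q hq ⟨g', e, hd⟩
      exact hσπ q (SEl.of_mk_eq e.symm h q hq hd)
  have hkc : k = kc σ G := by
    rw [hk, kc, ← hset, ← Nat.card_coe_set_eq]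
    rfl
  rw [hkc, ← hpart] at hmany
  obtain ⟨H, hH, hHn⟩ := exists_nilpotent_hall σ.card σ p rfl hσ hpσ hmany
  have hHfac : ∀ q ∈ σ, (Nat.card H).factorization q = (Nat.card G).factorization q :=
    fun q hq => factorization_of_card_eq_part hH (hσ q hq) hq
  -- a Sylow `p`-subgroup of `H`
  obtain ⟨P⟩ : Nonempty (Sylow p H) := inferInstance
  set P' := (P : Subgroup H).map H.subtype with hP'
  have hP'c : Nat.card P' = Nat.card P :=
    (Nat.card_congr (equivMapOfInjective _ _ H.subtype_injective).toEquiv).symm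
  -- Sylow subgroups for the primes other than `p` are central in `H`
  have hcentral : ∀ q, q.Prime → q ∣ Nat.card H → q ≠ p →
      q ^ (Nat.card H).factorization q ∣ Nat.card (center H) := by
    intro q hq hd hqp
    haveI := Fact.mk hq
    have hqσ : q ∈ σ := prime_mem_of_dvd_part hσ hq (hH ▸ hd)
    obtain ⟨T⟩ : Nonempty (Sylow q H) := inferInstance
    have hTab : ∀ a ∈ (T : Subgroup H), ∀ b ∈ (T : Subgroup H), Commute a b := by
      have hTc : Nat.card ((T : Subgroup H).map H.subtype) =
          q ^ (Nat.card G).factorization q := by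
        rw [← Nat.card_congr (equivMapOfInjective _ _ H.subtype_injective).toEquiv,
          T.card_eq_multiplicity, hHfac q hqσ]
      have h1 := hyp_subset (G := G) hσ (Finset.singleton_subset_iff.2 hqσ) (a := 1) (b := p)
        (by rwa [one_mul])
      rw [one_mul, part_singleton] at h1
      have hab := abelian_of_kc (lt_of_le_of_ne (hpσ q hqσ) hqp.symm) hTc h1
      intro a ha b hb
      exact Subtype.ext (commute_of_mem_centralizer (hab (mem_map_of_mem _ ha))
        (mem_map_of_mem H.subtype hb)).eq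
    have hle : (T : Subgroup H) ≤ center H := by
      intro a ha
      haveI := hHn
      have hnorm : ∀ (r : ℕ) [Fact r.Prime] (R : Sylow r H), (R : Subgroup H).Normal := fun r _ R =>
        Sylow.normal_of_normalizerCondition Group.normalizerCondition_of_isNilpotent R
      have hall : (⊤ : Subgroup H) ≤ centralizer ({a} : Set H) := by
        rw [← Element.closure_primePow_orderOf, closure_le]
        rintro x ⟨r, i, hr, hx⟩
        haveI := Fact.mk hr
        obtain ⟨R, hR⟩ := Element.exists_sylow_mem hx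
        refine mem_centralizer_singleton_iff.2 ?_
        by_cases hrq : r = q
        · subst hrq
          have hTn := hnorm r T
          obtain ⟨c, hc⟩ := MulAction.exists_smul_eq H T R
          rw [Sylow.smul_eq_of_normal] at hc
          exact (hTab x (hc ▸ hR) a ha).eq
        · exact Subgroup.commute_of_normal_of_disjoint _ _ (hnorm r R) (hnorm q T)
            (IsPGroup.disjoint_of_ne r q hrq _ _ R.2 T.2) x a hR ha
      exact mem_center_iff.2 fun g => mem_centralizer_singleton_iff.1 (hall (mem_top g))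
    rw [← T.card_eq_multiplicity]
    exact card_dvd_of_le hle
  have hsup : center H ⊔ (P : Subgroup H) = ⊤ := by
    refine eq_top_of_card_eq _ (Nat.dvd_antisymm (card_subgroup_dvd_card _) ?_)
    have hN : Nat.card H = part (Nat.card H).primeFactors (Nat.card H) :=
      (Nat.prod_factorization_pow_eq_self Nat.card_pos.ne').symm
    conv_lhs => rw [hN]
    refine part_dvd_of_forall (fun q hq => Nat.prime_of_mem_primeFactors hq) fun q hq => ?_
    by_cases hqp : q = p
    · subst hqp
      exact P.card_eq_multiplicity ▸ card_dvd_of_le le_sup_right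
    · exact (hcentral q (Nat.prime_of_mem_primeFactors hq) (Nat.dvd_of_mem_primeFactors hq)
        hqp).trans (card_dvd_of_le le_sup_left)
  have hcomm : commutator H ≤ (commutator P).map (P : Subgroup H).subtype := by
    rw [_root_.commutator_def, commutator_le]
    intro x _ y _
    obtain ⟨z, hz, a, ha, rfl⟩ := mem_sup_of_normal_left.1 (hsup.symm ▸ mem_top x)
    obtain ⟨w, hw, b, hb, rfl⟩ := mem_sup_of_normal_left.1 (hsup.symm ▸ mem_top y)
    rw [mem_center_iff] at hz hw
    have : ⁅z * a, w * b⁆ = ⁅a, b⁆ := by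
      simp only [commutatorElement_def, mul_inv_rev]
      calc z * a * (w * b) * (a⁻¹ * z⁻¹) * (b⁻¹ * w⁻¹)
          = z * (a * w) * b * a⁻¹ * z⁻¹ * b⁻¹ * w⁻¹ := by group
        _ = z * (w * a) * b * a⁻¹ * z⁻¹ * b⁻¹ * w⁻¹ := by rw [hw a]
        _ = z * (w * (a * b * a⁻¹)) * z⁻¹ * b⁻¹ * w⁻¹ := by group
        _ = (w * (a * b * a⁻¹)) * z * z⁻¹ * b⁻¹ * w⁻¹ := by rw [hz]
        _ = w * (a * b * a⁻¹ * b⁻¹) * w⁻¹ := by group
        _ = (a * b * a⁻¹ * b⁻¹) * w * w⁻¹ := by rw [hw]
        _ = _ := by group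
    rw [this]
    exact ⟨⁅⟨a, ha⟩, ⟨b, hb⟩⁆, commutator_mem_commutator (mem_top _) (mem_top _),
      map_commutatorElement _ _ _⟩
  have hle : Nat.card (commutator H) ≤ Nat.card (commutator P) :=
    (card_le_of_le hcomm).trans (le_of_eq
      (Nat.card_congr (equivMapOfInjective _ _ (P : Subgroup H).subtype_injective).toEquiv).symm)
  by_cases hpm : p ∈ σ
  swap
  · -- `p` does not divide `|H|`
    have hP1 : Subsingleton P := by
      refine (Nat.card_eq_one_iff_unique.1 ?_).1
      rw [P.card_eq_multiplicity, Nat.factorization_eq_zero_of_not_dvd, pow_zero]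
      exact fun h => hpm (prime_mem_of_dvd_part hσ hpF.out (hH ▸ h))
    have h1 : Nat.card (commutator H) ≤ 1 :=
      hle.trans (le_of_eq (Nat.card_of_subsingleton (1 : commutator P)))
    refine ⟨H, hH.trans hpart, hHn, h1.trans hpF.out.one_le, fun _ => ⟨⟨fun a b => ?_⟩⟩⟩
    exact commutatorElement_eq_one_iff_mul_comm.1 ((eq_bot_iff_forall _).1
      (eq_bot_of_card_le _ h1) _ (commutator_mem_commutator (mem_top a) (mem_top b)))
  -- the classes of `P` bound the classes of `p`-elements
  have hPG : Nat.card P' = p ^ (Nat.card G).factorization p := by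
    rw [hP'c, P.card_eq_multiplicity, hHfac p hpm]
  have hkP : kc {p} G ≤ Nat.card (ConjClasses P) := by
    refine (kc_singleton_le_classes hPG).trans ?_
    let e := equivMapOfInjective (P : Subgroup H) H.subtype H.subtype_injective
    exact Nat.card_le_card_of_surjective (ConjClasses.map e.toMonoidHom)
      (ConjClasses.map_surjective e.surjective)
  have h1 := hyp_subset (G := G) hσ (Finset.singleton_subset_iff.2 hpm) (a := 1) (b := p)
    (by rwa [one_mul])
  rw [one_mul, part_singleton, ← hPG, hP'c] at h1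
  have hmanyP : Nat.card P < p * Nat.card (ConjClasses P) :=
    h1.trans_le (Nat.mul_le_mul_left p hkP)
  refine ⟨H, hH.trans hpart, hHn, hle.trans (card_commutator_le_of_many P.2 hmanyP), fun h5 => ?_⟩
  rw [hkc, ← hpart, mul_comm] at h5
  have h6 := hyp_subset (G := G) hσ (Finset.singleton_subset_iff.2 hpm) h5
  rw [part_singleton, ← hPG, hP'c] at h6
  have hPab : ∀ a b : P, Commute a b := by
    by_contra hne
    have h7 := classes_bound P.2 hne
    rw [mul_comm] at h7
    nlinarith [h6, h7, Nat.mul_le_mul_left (p ^ 3) hkP]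
  have hP1 : commutator P = ⊥ := by
    rw [_root_.commutator_def, commutator_eq_bot_iff_le_centralizer]
    exact fun a _ => mem_centralizer_iff.2 fun b _ => (hPab b a).eq
  refine ⟨⟨fun a b => commutatorElement_eq_one_iff_mul_comm.1 ?_⟩⟩
  have h8 := hcomm (commutator_mem_commutator (mem_top a) (mem_top b))
  rwa [hP1, Subgroup.map_bot, mem_bot] at h8

end Cfsg.Agent.ManyPi
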