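import Cfsg.Agent.ManyPi.Basic

/-!
Auxiliary facts: normalizers, complements, Frattini counting, `p`-group class bounds.
-/

set_option autoImplicit false

namespace Cfsg.Agent.ManyPi

open Subgroup

variable {G : Type*} [Group G]

theorem mem_normalizer_of_conj_mem [Finite G] {H : Subgroup G} {g : G}
    (h : ∀ x ∈ H, g * x * g⁻¹ ∈ H) : g ∈ normalizer (H : Set G) := by
  rw [mem_normalizer_iff_map_conj_eq]
  refine eq_of_le_of_card_ge ?_ (le_of_eq ?_)
  · rintro _ ⟨x, hx, rfl⟩
    exact h x hx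
  · exact Nat.card_congr (equivMapOfInjective H _ (MulAut.conj g).injective).toEquiv

theorem commute_of_mem_centralizer {S : Subgroup G} {x y : G}
    (hx : x ∈ centralizer (S : Set G)) (hy : y ∈ S) : Commute x y :=
  (mem_centralizer_iff.1 hx y hy).symm

theorem mem_centralizer_of_commute {S : Subgroup G} {x : G}
    (h : ∀ y ∈ S, Commute x y) : x ∈ centralizer (S : Set G) :=
  mem_centralizer_iff.2 fun y hy => (h y hy).symm.eq

theorem conj_mem {H : Subgroup G} {n : G} (hn : n ∈ normalizer (H : Set G)) {x : G} (hx : x ∈ H) :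
    n * x * n⁻¹ ∈ H := (mem_normalizer_iff.1 hn x).1 hx

theorem conj_mem_centralizer {S : Subgroup G} {n c : G} (hn : n ∈ normalizer (S : Set G))
    (hc : c ∈ centralizer (S : Set G)) : n * c * n⁻¹ ∈ centralizer (S : Set G) := by
  refine mem_centralizer_of_commute fun y hy => ?_
  have h := ((commute_of_mem_centralizer hc (conj_mem (inv_mem hn) hy)).map
    (MulAut.conj n).toMonoidHom)
  simpa [mul_assoc] using h

theorem exists_mul_mem_normalizer [Finite G] {r : ℕ} [Fact r.Prime] {R0 C : Subgroup G}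
    (hR0 : SylIn r R0 C) {n : G} (hn : ∀ x ∈ R0, n * x * n⁻¹ ∈ C) :
    ∃ c ∈ C, c * n ∈ normalizer (R0 : Set G) := by
  obtain ⟨c, hc, h⟩ := hR0.exists_conj (T := R0.map (MulAut.conj n).toMonoidHom)
    (by rintro _ ⟨x, hx, rfl⟩; exact hn x hx) (hR0.isPGroup.map _)
  refine ⟨c, hc, mem_normalizer_of_conj_mem fun x hx => ?_⟩
  have := h _ (mem_map_of_mem _ hx)
  simpa [mul_assoc] using this

theorem card_dvd_of_sup_eq_top {A K : Subgroup G} [K.Normal] (h : A ⊔ K = ⊤) :
    Nat.card G ∣ Nat.card A * Nat.card K := by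
  rw [← card_mul_index K, mul_comm (Nat.card A)]
  refine Nat.mul_dvd_mul_left _ ?_
  rw [← relIndex_top_right, ← h, relIndex_sup_right]
  exact relIndex_dvd_card _ _

theorem frattini_dvd [Finite G] {r : ℕ} [Fact r.Prime] {K L P : Subgroup G} (hP : SylIn r P K)
    (hKL : K ≤ L) (hLK : ∀ l ∈ L, ∀ x ∈ K, l * x * l⁻¹ ∈ K) :
    Nat.card L ∣ Nat.card ↥(L ⊓ normalizer (P : Set G)) * Nat.card K := by
  have : (K.subgroupOf L).Normal :=
    ⟨fun x hx l => hLK l l.2 x hx⟩
  have h : (L ⊓ normalizer (P : Set G)).subgroupOf L ⊔ K.subgroupOf L = ⊤ := by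
    rw [eq_top_iff]
    intro l _
    obtain ⟨c, hc, hcl⟩ := exists_mul_mem_normalizer hP (n := (l : G))
      fun x hx => hLK l l.2 x (hP.1 hx)
    rw [show l = (⟨c, hKL hc⟩⁻¹ : L) * (⟨c, hKL hc⟩ * l) by group]
    refine mul_mem (inv_mem (mem_sup_right hc)) (mem_sup_left ?_)
    exact ⟨mul_mem (hKL hc) l.2, hcl⟩
  have := card_dvd_of_sup_eq_top h
  rwa [Nat.card_congr (subgroupOfEquivOfLe inf_le_left).toEquiv,
    Nat.card_congr (subgroupOfEquivOfLe hKL).toEquiv] at this

theorem exists_normal_complement [Finite G] {q : ℕ} [hq : Fact q.Prime] {S : Subgroup G}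
    (hS : Nat.card S = q ^ (Nat.card G).factorization q)
    (h : normalizer (S : Set G) ≤ centralizer (S : Set G)) :
    ∃ M : Subgroup G, M.Normal ∧ M.index = q ^ (Nat.card G).factorization q ∧
      ¬ q ∣ Nat.card M :=
  let P : Sylow q G := Sylow.ofCard S hS
  ⟨_, MonoidHom.normal_ker (MonoidHom.transferSylow P h),
    (MonoidHom.ker_transferSylow_isComplement' P h).symm.index_eq_card.trans hS,
    MonoidHom.not_dvd_card_ker_transferSylow P h⟩

theorem mul_card_le_of_lt [Finite G] {r : ℕ} [hr : Fact r.Prime] {H K : Subgroup G}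
    (hK : IsPGroup r K) (hle : H ≤ K) (hne : ∃ x ∈ K, x ∉ H) :
    r * Nat.card H ≤ Nat.card K := by
  obtain ⟨i, hi⟩ := IsPGroup.iff_card.1 (hK.to_le hle)
  obtain ⟨j, hj⟩ := IsPGroup.iff_card.1 hK
  rw [hi, hj, ← pow_succ']
  refine Nat.pow_le_pow_right hr.out.pos ?_
  by_contra hlt
  obtain ⟨x, hxK, hxH⟩ := hne
  refine hxH ((eq_of_le_of_card_ge hle ?_).symm ▸ hxK)
  rw [hi, hj]
  exact Nat.pow_le_pow_right hr.out.pos (by omega)

theorem sq_mul_card_center_le [Finite G] {r : ℕ} [Fact r.Prime] {R : Subgroup G}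
    (hR : IsPGroup r R) {a b : G} (ha : a ∈ R) (hb : b ∈ R) (hab : ¬ Commute a b) :
    r ^ 2 * Nat.card ↥(R ⊓ centralizer (R : Set G)) ≤ Nat.card R := by
  have h1 : r * Nat.card ↥(R ⊓ centralizer (R : Set G)) ≤
      Nat.card ↥(R ⊓ centralizer ({a} : Set G)) := by
    refine mul_card_le_of_lt (hR.to_le inf_le_left)
      (inf_le_inf_left _ (centralizer_le (Set.singleton_subset_iff.2 ha)))
      ⟨a, ⟨ha, mem_centralizer_singleton_iff.2 rfl⟩, fun h => hab ?_⟩
    exact commute_of_mem_centralizer h.2 hb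
  have h2 : r * Nat.card ↥(R ⊓ centralizer ({a} : Set G)) ≤ Nat.card R :=
    mul_card_le_of_lt hR inf_le_left
      ⟨b, hb, fun h => hab (mem_centralizer_singleton_iff.1 h.2).symm⟩
  calc r ^ 2 * _ = r * (r * _) := by rw [pow_two, mul_assoc]
    _ ≤ r * Nat.card ↥(R ⊓ centralizer ({a} : Set G)) := Nat.mul_le_mul_left r h1
    _ ≤ _ := h2

theorem conj_iterate (z a : G) (n : ℕ) :
    (fun x => z * x * z⁻¹)^[n] a = z ^ n * a * (z ^ n)⁻¹ := by
  induction n with
  | zero => simp
  | succ n ih => rw [Function.iterate_succ_apply', ih]; group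

theorem prod_conj_iterate (z : G) (a : G × G) (n : ℕ) :
    (fun x : G × G => (z * x.1 * z⁻¹, z * x.2 * z⁻¹))^[n] a =
      (z ^ n * a.1 * (z ^ n)⁻¹, z ^ n * a.2 * (z ^ n)⁻¹) := by
  induction n with
  | zero => simp
  | succ n ih => rw [Function.iterate_succ_apply', ih]; ext <;> simp [pow_succ', mul_assoc]

/-- Class counting on a set of elements of a nonabelian `r`-group. -/
theorem image_count_pGroup [Finite G] {r : ℕ} [hr : Fact r.Prime] {R : Subgroup G}
    (hR : IsPGroup r R) {β : Type*} (f : G → β) {A : Set G} (hAR : A ⊆ R)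
    (hA : ∀ z ∈ R, ∀ a ∈ A, z * a * z⁻¹ ∈ A) (hf : ∀ z ∈ R, ∀ a ∈ A, f (z * a * z⁻¹) = f a) :
    r * (f '' A).ncard ≤ A.ncard + (r - 1) * Nat.card ↥(R ⊓ centralizer (R : Set G)) := by
  refine (image_count (F := ((R ⊓ centralizer (R : Set G) : Subgroup G) : Set G))
    (Set.toFinite A) f r fun a ha => ?_).trans ?_
  · by_cases hc : a ∈ centralizer (R : Set G)
    · exact .inl ⟨a, ha, ⟨hAR ha, hc⟩, rfl⟩
    · obtain ⟨z, hz, hza⟩ : ∃ z ∈ R, ¬ Commute a z := by
        by_contra! h
        exact hc (mem_centralizer_of_commute h)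
      obtain ⟨i, hi⟩ := qEl_of_mem hR hz
      refine .inr (le_fibre (Set.toFinite A) f (fun x => z * x * z⁻¹) (n := i) hr.out (fun x => ?_)
        (hA z hz) (hf z hz) ha fun e => hza ?_)
      · rw [conj_iterate, ← hi, pow_orderOf_eq_one]; simp
      · exact (mul_inv_eq_iff_eq_mul.1 e).symm
  · refine Nat.add_le_add_left (Nat.mul_le_mul_left _ ?_) _
    rw [← SetLike.coe_sort_coe, Nat.card_coe_set_eq]
    exact Set.ncard_le_ncard Set.inter_subset_right (Set.toFinite _)

theorem classes_bound [Finite G] {q : ℕ} [hq : Fact q.Prime] (hG : IsPGroup q G)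
    (hne : ¬ ∀ a b : G, Commute a b) :
    q ^ 3 * Nat.card (ConjClasses G) ≤ Nat.card G * (q ^ 2 + q - 1) := by
  push Not at hne
  obtain ⟨a, b, hab⟩ := hne
  have hT : IsPGroup q (⊤ : Subgroup G) := hG.of_equiv topEquiv.symm
  have h1 := image_count_pGroup hT ConjClasses.mk (A := Set.univ) (fun x _ => mem_top x)
    (fun _ _ _ _ => trivial) (fun z _ a _ => mk_conj z a)
  rw [Set.image_univ, ConjClasses.mk_surjective.range_eq, Set.ncard_univ, Set.ncard_univ] at h1
  have h2 := sq_mul_card_center_le hT (mem_top a) (mem_top b) hab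
  rw [card_top] at h2
  have := hq.out.two_le
  generalize Nat.card ↥(⊤ ⊓ centralizer ((⊤ : Subgroup G) : Set G)) = Z at h1 h2
  generalize Nat.card (ConjClasses G) = k at h1 ⊢
  generalize Nat.card G = n at h1 h2 ⊢
  obtain ⟨u, rfl⟩ : ∃ u, q = u + 1 := ⟨q - 1, by omega⟩
  rw [show (u + 1) ^ 2 + (u + 1) - 1 = (u + 1) ^ 2 + u by omega]
  rw [Nat.add_sub_cancel] at h1
  nlinarith [Nat.mul_le_mul_left ((u + 1) ^ 2) h1, Nat.mul_le_mul_left u h2]

theorem commute_of_many [Finite G] {p q : ℕ} [hq : Fact q.Prime] (hG : IsPGroup q G) (hpq : p < q)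
    (h : Nat.card G < p * Nat.card (ConjClasses G)) (a b : G) : Commute a b := by
  by_contra hab
  have h1 := classes_bound hG fun h' => hab (h' a b)
  generalize Nat.card (ConjClasses G) = k at h h1
  generalize Nat.card G = n at h h1
  obtain ⟨u, rfl⟩ : ∃ u, q = u + 1 := ⟨q - 1, by omega⟩
  rw [show (u + 1) ^ 2 + (u + 1) - 1 = (u + 1) ^ 2 + u by omega] at h1
  have h2 : p * k ≤ u * k := Nat.mul_le_mul_right k (by omega)
  nlinarith [Nat.mul_le_mul_left ((u + 1) ^ 2 + u) (h.le.trans h2)]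

theorem card_centralizer_conj (u x : G) :
    Nat.card (centralizer ({u * x * u⁻¹} : Set G)) = Nat.card (centralizer ({x} : Set G)) := by
  have : centralizer ({u * x * u⁻¹} : Set G) =
      (centralizer ({x} : Set G)).map (MulAut.conj u).toMonoidHom := by
    ext y
    rw [mem_map_equiv, mem_centralizer_singleton_iff, mem_centralizer_singleton_iff,
      MulAut.conj_symm_apply]
    constructor
    · intro h
      have := congrArg (fun t => u⁻¹ * t * u) h
      simpa [mul_assoc] using this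
    · intro h
      have := congrArg (fun t => u * t * u⁻¹) h
      simpa [mul_assoc] using this
  rw [this]
  exact (Nat.card_congr (equivMapOfInjective _ _ (MulAut.conj u).injective).toEquiv).symm

end Cfsg.Agent.ManyPi
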