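import Cfsg.Agent.ManyPi.Pair
import Cfsg.Agent.S0581

/-!
Many classes of `σ`-elements force a nilpotent Hall `σ`-subgroup.
-/

set_option autoImplicit false

namespace Cfsg.Agent.ManyPi

open Subgroup
open scoped Pointwise

universe u

variable {G : Type*} [Group G]

theorem part_union {τ σ : Finset ℕ} (h : τ ⊆ σ) (n : ℕ) :
    part σ n = part (σ \ τ) n * part τ n := (Finset.prod_sdiff h).symm

theorem part_insert {σ : Finset ℕ} {q : ℕ} (hq : q ∉ σ) (n : ℕ) :
    part (insert q σ) n = q ^ n.factorization q * part σ n := Finset.prod_insert hq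

theorem part_singleton (q n : ℕ) : part {q} n = q ^ n.factorization q := Finset.prod_singleton _ _

theorem part_dvd_of_forall {σ : Finset ℕ} (hσ : ∀ q ∈ σ, q.Prime) {n d : ℕ}
    (h : ∀ q ∈ σ, q ^ n.factorization q ∣ d) : part σ n ∣ d := by
  induction σ using Finset.induction_on with
  | empty => simp [part]
  | @insert q σ hq ih =>
    rw [part_insert hq]
    refine Nat.Coprime.mul_dvd_of_dvd_of_dvd (Nat.Coprime.prod_right fun t ht => ?_)
      (h q (Finset.mem_insert_self q σ))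
      (ih (fun t ht => hσ t (Finset.mem_insert_of_mem ht)) fun t ht =>
        h t (Finset.mem_insert_of_mem ht))
    exact Nat.Coprime.pow _ _ ((Nat.coprime_primes (hσ q (Finset.mem_insert_self q σ))
      (hσ t (Finset.mem_insert_of_mem ht))).2 fun e => hq (e ▸ ht))

theorem pow_dvd_part {σ : Finset ℕ} {q : ℕ} (hq : q ∈ σ) (n : ℕ) :
    q ^ n.factorization q ∣ part σ n :=
  Finset.dvd_prod_of_mem (fun r => r ^ n.factorization r) hq

theorem prime_mem_of_dvd_part {σ : Finset ℕ} (hσ : ∀ q ∈ σ, q.Prime) {n d : ℕ} (hd : d.Prime)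
    (h : d ∣ part σ n) : d ∈ σ := by
  obtain ⟨q, hq, hdq⟩ := (hd.prime.dvd_finsetProd_iff _).1 h
  exact ((Nat.prime_dvd_prime_iff_eq hd (hσ q hq)).1 (hd.dvd_of_dvd_pow hdq)) ▸ hq

theorem factorization_of_card_eq_part [Finite G] {σ : Finset ℕ} {K : Subgroup G}
    (hK : Nat.card K = part σ (Nat.card G)) {q : ℕ} (hq : q.Prime) (hqσ : q ∈ σ) :
    (Nat.card K).factorization q = (Nat.card G).factorization q :=
  le_antisymm (pow_le_pow_factorization hq K)
    ((hq.pow_dvd_iff_le_factorization Nat.card_pos.ne').1 (hK ▸ pow_dvd_part hqσ _))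

theorem coprime_index_of_card_eq_part [Finite G] {σ : Finset ℕ} (hσ : ∀ q ∈ σ, q.Prime)
    {K : Subgroup G} (hK : Nat.card K = part σ (Nat.card G)) :
    (Nat.card K).Coprime K.index := by
  refine Nat.coprime_of_dvd fun d hd h1 h2 => ?_
  have hdσ : d ∈ σ := prime_mem_of_dvd_part hσ hd (hK ▸ h1)
  have hmul : d ^ ((Nat.card G).factorization d + 1) ∣ Nat.card G := by
    have h3 : d ^ (Nat.card G).factorization d ∣ Nat.card K := hK ▸ pow_dvd_part hdσ _
    have h4 := Nat.mul_dvd_mul h3 h2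
    rwa [K.card_mul_index, ← pow_succ] at h4
  have := (hd.pow_dvd_iff_le_factorization Nat.card_pos.ne').1 hmul
  omega

theorem hyp_subset [Finite G] {τ σ : Finset ℕ} (hσ : ∀ q ∈ σ, q.Prime) (h : τ ⊆ σ) {a b : ℕ}
    (hh : a * part σ (Nat.card G) < b * kc σ G) :
    a * part τ (Nat.card G) < b * kc τ G := by
  have h1 : kc σ G ≤ kc τ G * part (σ \ τ) (Nat.card G) := by
    have := kc_union_le (G := G) (τ := τ) (ρ := σ \ τ) fun q hq => hσ q (Finset.mem_sdiff.1 hq).1
    rwa [Finset.union_sdiff_of_subset h] at this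
  have h2 := lt_of_lt_of_le hh (Nat.mul_le_mul_left b h1)
  rw [part_union h, mul_comm (part (σ \ τ) _), ← mul_assoc, ← mul_assoc] at h2
  exact Nat.lt_of_mul_lt_mul_right h2

theorem join_nilpotent [Finite G] {A B : Subgroup G} (hA : Group.IsNilpotent A)
    (hB : Group.IsNilpotent B) (hcomm : A ≤ centralizer (B : Set G))
    (hcop : (Nat.card A).Coprime (Nat.card B)) :
    ∃ H : Subgroup G, Nat.card H = Nat.card A * Nat.card B ∧ Group.IsNilpotent H := by
  have hc : ∀ (a : A) (b : B), Commute (A.subtype a) (B.subtype b) :=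
    fun a b => commute_of_mem_centralizer (hcomm a.2) b.2
  set φ := MonoidHom.noncommCoprod A.subtype B.subtype hc with hφ
  have hinj : Function.Injective φ := by
    rw [MonoidHom.noncommCoprod_injective]
    refine ⟨A.subtype_injective, B.subtype_injective, ?_⟩
    rw [range_subtype, range_subtype]
    exact Subgroup.disjoint_of_coprime_natCard hcop
  refine ⟨φ.range, ?_, ?_⟩
  · rw [← Nat.card_congr (MonoidHom.ofInjective hinj).toEquiv, Nat.card_prod]
  · have := hA
    have := hB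
    exact Group.nilpotent_of_surjective φ.rangeRestrict φ.rangeRestrict_surjective

theorem pair_centralizes [Finite G] {σ : Finset ℕ} (hσ : ∀ q ∈ σ, q.Prime) {p : ℕ}
    (hp : ∀ q ∈ σ, p ≤ q) (hh : part σ (Nat.card G) < p * kc σ G) {r t : ℕ} (hr : r ∈ σ)
    (ht : t ∈ σ) (hne : r ≠ t) {A0 : Subgroup G}
    (hA0 : Nat.card A0 = r ^ (Nat.card G).factorization r) :
    ∃ B : Subgroup G, Nat.card B = t ^ (Nat.card G).factorization t ∧
      B ≤ centralizer (A0 : Set G) := by
  haveI := Fact.mk (hσ r hr)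
  haveI := Fact.mk (hσ t ht)
  have hsub : ({r, t} : Finset ℕ) ⊆ σ := Finset.insert_subset hr (Finset.singleton_subset_iff.2 ht)
  have h2 := hyp_subset (G := G) hσ hsub (a := 1) (b := p) (by rwa [one_mul])
  rw [one_mul, part_insert (by simpa using hne), part_singleton] at h2
  obtain ⟨A, B, hA, hB, hAB⟩ : ∃ A B : Subgroup G, Nat.card A = r ^ (Nat.card G).factorization r ∧
      Nat.card B = t ^ (Nat.card G).factorization t ∧ B ≤ centralizer (A : Set G) := by
    rcases lt_or_gt_of_ne hne with hlt | hlt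
    · obtain ⟨A, B, hA, hB, h⟩ := pair_lemma hlt
        (h2.trans_le (Nat.mul_le_mul_right _ (hp r hr)))
      exact ⟨A, B, hA, hB, le_centralizer_iff.1 h⟩
    · rw [Finset.pair_comm, mul_comm (r ^ _)] at h2
      obtain ⟨B, A, hB, hA, h⟩ := pair_lemma hlt (h2.trans_le (Nat.mul_le_mul_right _ (hp t ht)))
      exact ⟨A, B, hA, hB, h⟩
  obtain ⟨u, -, hu⟩ := (SylIn.top hA0).exists_conj (T := A) le_top (IsPGroup.of_card hA)
  have humap : A.map (MulAut.conj u).toMonoidHom = A0 := by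
    refine eq_of_le_of_card_ge (by rintro _ ⟨x, hx, rfl⟩; exact hu x hx) ?_
    rw [hA0, ← Nat.card_congr (equivMapOfInjective _ _ (MulAut.conj u).injective).toEquiv, hA]
  refine ⟨B.map (MulAut.conj u).toMonoidHom, ?_, ?_⟩
  · rw [← Nat.card_congr (equivMapOfInjective _ _ (MulAut.conj u).injective).toEquiv, hB]
  · rintro _ ⟨y, hy, rfl⟩
    refine mem_centralizer_of_commute fun z hz => ?_
    rw [← humap] at hz
    obtain ⟨x, hx, rfl⟩ := hz
    exact (commute_of_mem_centralizer (hAB hy) hx).map (MulAut.conj u).toMonoidHom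

theorem exists_hall_of_normalizer_eq [Finite G] {σ : Finset ℕ} (hσ : ∀ q ∈ σ, q.Prime) {p : ℕ}
    (hp : ∀ q ∈ σ, p ≤ q) (hh : part σ (Nat.card G) < p * kc σ G) {q : ℕ} (hq : q ∈ σ)
    {Q : Subgroup G} (hQ : Nat.card Q = q ^ (Nat.card G).factorization q)
    (hNC : normalizer (Q : Set G) ≤ centralizer (Q : Set G)) {K : Subgroup G}
    (hK : Nat.card K = part (σ.erase q) (Nat.card G)) (hKn : Group.IsNilpotent K) :
    ∃ H : Subgroup G, Nat.card H = part σ (Nat.card G) ∧ Group.IsNilpotent H := by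
  haveI := Fact.mk (hσ q hq)
  set σ' := σ.erase q with hσ'def
  have hσ' : ∀ r ∈ σ', r.Prime := fun r hr => hσ r (Finset.mem_of_mem_erase hr)
  have hcop : (Nat.card K).Coprime (q ^ (Nat.card G).factorization q) := by
    rw [hK]
    exact Nat.Coprime.prod_left fun r hr => Nat.Coprime.pow _ _
      ((Nat.coprime_primes (hσ' r hr) (hσ q hq)).2 (Finset.ne_of_mem_erase hr))
  obtain ⟨M, hMn, hMi, hMq⟩ := exists_normal_complement hQ hNC
  have hKM : K ≤ M := fun x hx => Element.mem_of_coprime_index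
    (hMi ▸ hcop.coprime_dvd_left (K.orderOf_dvd_natCard hx))
  -- Frattini argument with the conjugacy of nilpotent Hall subgroups of `M`
  have hsup : normalizer (K : Set G) ⊔ M = ⊤ := by
    rw [eq_top_iff]
    intro g _
    set K1 := K.map (MulAut.conj g).toMonoidHom with hK1
    have hK1M : K1 ≤ M := by rintro _ ⟨x, hx, rfl⟩; exact hMn.conj_mem x (hKM hx) g
    have hcK1 : Nat.card K1 = Nat.card K :=
      (Nat.card_congr (equivMapOfInjective _ _ (MulAut.conj g).injective).toEquiv).symm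
    have hcKM : Nat.card (K.subgroupOf M) = Nat.card K :=
      Nat.card_congr (subgroupOfEquivOfLe hKM).toEquiv
    obtain ⟨x, hx⟩ := S0581.result (K.subgroupOf M) (K1.subgroupOf M)
      (Group.nilpotent_of_surjective (subgroupOfEquivOfLe hKM).symm.toMonoidHom
        (subgroupOfEquivOfLe hKM).symm.surjective)
      (by
        rw [hcKM]
        exact (coprime_index_of_card_eq_part hσ' hK).coprime_dvd_right
          (Dvd.intro _ (relIndex_mul_index hKM)))
      (fun d _ hd => by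
        rwa [hcKM, ← hcK1, ← Nat.card_congr (subgroupOfEquivOfLe hK1M).toEquiv])
    have hN : (x : G)⁻¹ * g ∈ normalizer (K : Set G) := by
      refine mem_normalizer_of_conj_mem fun y hy => ?_
      have h1 : (⟨g * y * g⁻¹, hMn.conj_mem y (hKM hy) g⟩ : M) ∈ K1.subgroupOf M :=
        ⟨y, hy, rfl⟩
      have h2 := hx h1
      rw [Subgroup.mem_pointwise_smul_iff_inv_smul_mem] at h2
      simpa [mul_assoc] using (Subgroup.mem_subgroupOf.1 h2)
    rw [show g = (x : G) * ((x : G)⁻¹ * g) by group]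
    exact mul_mem (mem_sup_right x.2) (mem_sup_left hN)
  have hqN : q ^ (Nat.card G).factorization q ∣ Nat.card (normalizer (K : Set G)) :=
    ((((hσ q hq).coprime_iff_not_dvd).2 hMq).pow_left _).dvd_of_dvd_mul_right
      ((Nat.ordProj_dvd _ q).trans (card_dvd_of_sup_eq_top hsup))
  obtain ⟨Q1, hQ1⟩ := exists_sylIn (q := q) (normalizer (K : Set G))
  have hQ1c : Nat.card Q1 = q ^ (Nat.card G).factorization q := by
    rw [hQ1.2, le_antisymm (pow_le_pow_factorization (hσ q hq) _)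
      (((hσ q hq).pow_dvd_iff_le_factorization Nat.card_pos.ne').1 hqN)]
  have hcent : ∀ y ∈ Q1, K ≤ centralizer ({y} : Set G) := by
    intro y hy
    have hdvd : part σ' (Nat.card G) ∣ Nat.card ↥(K ⊓ centralizer ({y} : Set G)) := by
      refine part_dvd_of_forall hσ' fun r hr => ?_
      haveI := Fact.mk (hσ' r hr)
      obtain ⟨Kr, hKr⟩ := exists_sylIn (q := r) K
      have hKrc : Nat.card Kr = r ^ (Nat.card G).factorization r := by
        rw [hKr.2, factorization_of_card_eq_part hK (hσ' r hr) hr]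
      suffices h : Kr ≤ centralizer ({y} : Set G) from
        hKrc ▸ card_dvd_of_le (le_inf hKr.1 h)
      -- `Kr` is normal in `K`
      let P : Sylow r K := Sylow.ofCard (Kr.subgroupOf K)
        (by rw [Nat.card_congr (subgroupOfEquivOfLe hKr.1).toEquiv, hKr.2])
      have hPn : (P : Subgroup K).Normal :=
        haveI := hKn
        Sylow.normal_of_normalizerCondition Group.normalizerCondition_of_isNilpotent P
      have hNKr : ∀ g ∈ normalizer (K : Set G), g ∈ normalizer (Kr : Set G) := by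
        intro g hg
        refine mem_normalizer_of_conj_mem fun z hz => ?_
        obtain ⟨c, hc, h⟩ := hKr.exists_conj (T := Kr.map (MulAut.conj g).toMonoidHom)
          (by rintro _ ⟨w, hw, rfl⟩; exact conj_mem hg (hKr.1 hw)) (hKr.isPGroup.map _)
        have h1 := h _ (mem_map_of_mem _ hz)
        have h2 := hPn.conj_mem ⟨_, hKr.1 h1⟩ h1 (⟨c, hc⟩⁻¹ : K)
        simpa [P, Subgroup.mem_subgroupOf, mul_assoc] using
          (show ((⟨c, hc⟩⁻¹ * ⟨_, hKr.1 h1⟩ * (⟨c, hc⟩⁻¹)⁻¹ : K) : G) ∈ Kr from h2)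
      obtain ⟨Q2, hQ2, hQ2C⟩ := pair_centralizes hσ hp hh (Finset.mem_of_mem_erase hr) hq
        (Finset.ne_of_mem_erase hr) hKrc
      have hyN : y ∈ normalizer (Kr : Set G) := hNKr y (hQ1.1 hy)
      obtain ⟨c, hc, hcy⟩ := (SylIn.full (hσ q hq) (hQ2C.trans (centralizer_le_normalizer _))
        hQ2).1.exists_conj_mem hyN (qEl_of_mem hQ1.isPGroup hy)
      have hyC : y ∈ centralizer (Kr : Set G) := by
        have := conj_mem_centralizer (inv_mem hc) (hQ2C hcy)
        simpa [mul_assoc] using this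
      intro z hz
      exact mem_centralizer_singleton_iff.2 (commute_of_mem_centralizer hyC hz).symm.eq
    have heq : K ⊓ centralizer ({y} : Set G) = K :=
      eq_of_le_of_card_ge inf_le_left (hK.symm ▸ Nat.le_of_dvd Nat.card_pos hdvd)
    exact heq ▸ inf_le_right
  obtain ⟨H, hH, hHn⟩ := join_nilpotent hKn hQ1.isPGroup.isNilpotent
    (fun z hz => mem_centralizer_of_commute fun y hy =>
      mem_centralizer_singleton_iff.1 (hcent y hy hz))
    (hQ1c ▸ hcop)
  refine ⟨H, ?_, hHn⟩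
  rw [hH, hK, hQ1c, mul_comm, ← part_insert (Finset.notMem_erase q σ), Finset.insert_erase hq]

theorem two_mul_kc_singleton_le [Finite G] {r : ℕ} [hr : Fact r.Prime] {R : Subgroup G}
    (hR : Nat.card R = r ^ (Nat.card G).factorization r) {b : G}
    (hb : b ∈ normalizer (R : Set G)) (hbC : b ∉ centralizer (R : Set G)) :
    2 * r * kc {r} G ≤ r ^ (Nat.card G).factorization r * (r + 1) := by
  have h1 := image_count_two (Set.toFinite (R : Set G)) ConjClasses.mk (fun x => b * x * b⁻¹)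
    (fun x hx => conj_mem hb hx) (fun x _ => mk_conj b x)
  have hk : kc {r} G ≤ (ConjClasses.mk '' (R : Set G)).ncard := by
    refine Set.ncard_le_ncard ?_ (Set.toFinite _)
    rintro _ ⟨g, hg, rfl⟩
    obtain ⟨c, -, hc⟩ := (SylIn.top hR).exists_conj_mem (mem_top g) ((sel_singleton hr.out).1 hg)
    exact ⟨_, hc, mk_conj c g⟩
  have h2 : r * Nat.card ↥(R ⊓ centralizer ({b} : Set G)) ≤ Nat.card R := by
    refine mul_card_le_of_lt (IsPGroup.of_card hR) inf_le_left ?_
    by_contra! h'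
    exact hbC (mem_centralizer_of_commute fun y hy =>
      (mem_centralizer_singleton_iff.1 (h' y hy).2).symm)
  have h3 : ((R : Set G) ∩ {x | b * x * b⁻¹ = x}).ncard ≤
      Nat.card ↥(R ⊓ centralizer ({b} : Set G)) := by
    rw [← SetLike.coe_sort_coe, Nat.card_coe_set_eq]
    exact Set.ncard_le_ncard fun x hx =>
      ⟨hx.1, mem_centralizer_singleton_iff.2 (mul_inv_eq_iff_eq_mul.1 hx.2).symm⟩
  rw [← Nat.card_coe_set_eq (R : Set G), SetLike.coe_sort_coe, hR] at h1
  rw [hR] at h2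
  nlinarith [Nat.mul_le_mul_left r h1, Nat.mul_le_mul_left r h3, Nat.mul_le_mul_left (2 * r) hk]

theorem fusion_case {p r q k I F k' kC m Qc : ℕ} (hpr : p < r) (hrq : r < q) (hkC : p * kC ≤ m)
    (h2I : 2 * I ≤ kC * Qc + F) (hF : q * F ≤ kC * Qc) (hsplit : q * k ≤ q * I + k' * Qc)
    (hr : 2 * r * k' ≤ m * (r + 1)) (hm : m * Qc < p * k) : False := by
  have e1 : 2 * p * r * (q * k) ≤ 2 * p * r * (q * I + k' * Qc) := Nat.mul_le_mul_left _ hsplit
  have e2 : p * r * q * (2 * I) ≤ p * r * q * (kC * Qc + F) := Nat.mul_le_mul_left _ h2I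
  have e3 : p * r * (q * F) ≤ p * r * (kC * Qc) := Nat.mul_le_mul_left _ hF
  have e4 : (p * kC) * (r * (q + 1) * Qc) ≤ m * (r * (q + 1) * Qc) := Nat.mul_le_mul_right _ hkC
  have e5 : (2 * r * k') * (p * Qc) ≤ m * (r + 1) * (p * Qc) := Nat.mul_le_mul_right _ hr
  have e6 : (r * (q + 1) + p * (r + 1)) * (m * Qc) ≤ 2 * r * q * (m * Qc) := by
    refine Nat.mul_le_mul_right _ ?_
    nlinarith
  have e7 : 2 * r * q * (m * Qc + 1) ≤ 2 * r * q * (p * k) := Nat.mul_le_mul_left _ hm
  have e8 : 0 < 2 * r * q := Nat.mul_pos (by omega) (by omega)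
  linarith

theorem exists_hall_of_fusion [Finite G] {σ : Finset ℕ} (hσ : ∀ q ∈ σ, q.Prime) {p : ℕ}
    (hp : ∀ q ∈ σ, p ≤ q) (hh : part σ (Nat.card G) < p * kc σ G) {q r : ℕ} (hq : q ∈ σ)
    (hr : r ∈ σ) (hpr : p < r) (hrq : r < q)
    (hfus : ∀ t ∈ σ, p < t → ∀ T : Subgroup G, Nat.card T = t ^ (Nat.card G).factorization t →
      ∃ b ∈ normalizer (T : Set G), b ∉ centralizer (T : Set G))
    (ih : ∀ C : Subgroup G,
      part (σ.erase q) (Nat.card C) < p * kc (σ.erase q) C →
        ∃ K : Subgroup C, Nat.card K = part (σ.erase q) (Nat.card C) ∧ Group.IsNilpotent K) :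
    ∃ H : Subgroup G, Nat.card H = part σ (Nat.card G) ∧ Group.IsNilpotent H := by
  classical
  haveI := Fact.mk (hσ q hq)
  haveI := Fact.mk (hσ r hr)
  set σ' := σ.erase q with hσ'def
  have hσ' : ∀ t ∈ σ', t.Prime := fun t ht => hσ t (Finset.mem_of_mem_erase ht)
  obtain ⟨Q, hQ⟩ := exists_full (G := G) q
  set C := centralizer (Q : Set G) with hC
  have hpart : part σ' (Nat.card C) = part σ' (Nat.card G) := by
    refine Finset.prod_congr rfl fun t ht => ?_
    haveI := Fact.mk (hσ' t ht)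
    obtain ⟨T, hT, hTC⟩ := pair_centralizes hσ hp hh hq (Finset.mem_of_mem_erase ht)
      (Finset.ne_of_mem_erase ht).symm hQ
    rw [le_antisymm (pow_le_pow_factorization (hσ' t ht) _)
      (((hσ' t ht).pow_dvd_iff_le_factorization Nat.card_pos.ne').1
        (SylIn.full (hσ' t ht) hTC hT).2)]
  have hpartσ : part σ (Nat.card G) = part σ' (Nat.card G) * q ^ (Nat.card G).factorization q := by
    rw [mul_comm, ← part_insert (Finset.notMem_erase q σ), Finset.insert_erase hq]
  rcases lt_or_ge (part σ' (Nat.card C)) (p * kc σ' C) with hlt | hge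
  · obtain ⟨K, hK, hKn⟩ := ih C hlt
    have hKc : Nat.card (K.map C.subtype) = part σ' (Nat.card G) := by
      rw [← Nat.card_congr (equivMapOfInjective _ _ C.subtype_injective).toEquiv, hK, hpart]
    obtain ⟨H, hH, hHn⟩ := join_nilpotent (A := K.map C.subtype) (B := Q)
      (haveI := hKn
       Group.nilpotent_of_surjective
        (equivMapOfInjective K C.subtype C.subtype_injective).toMonoidHom
        (equivMapOfInjective K C.subtype C.subtype_injective).surjective)
      (IsPGroup.of_card hQ).isNilpotent (map_subtype_le _) (by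
        rw [hKc, hQ]
        exact Nat.Coprime.prod_left fun t ht => Nat.Coprime.pow _ _
          ((Nat.coprime_primes (hσ' t ht) (hσ q hq)).2 (Finset.ne_of_mem_erase ht)))
    exact ⟨H, by rw [hH, hKc, hQ, hpartσ], hHn⟩
  exfalso
  obtain ⟨b, hb, hbC⟩ := hfus q hq (hpr.trans hrq) Q hQ
  set f' : ConjClasses C × G → ConjClasses G :=
    fun z => ConjClasses.mk (((Quotient.out z.1 : C) : G) * z.2) with hf'
  have hsplit := kc_split (σ := σ') hQ (kSet σ' G)
    (A := (fun X : ConjClasses C => ((Quotient.out X : C) : G)) '' kSet σ' C) (C0 := C)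
    (by rintro _ ⟨X, -, rfl⟩; exact (Quotient.out X).2) le_rfl
    (fun x hx hxC => by
      obtain ⟨c, hc⟩ := exists_conj_of_mk_eq (g := (⟨x, hxC⟩ : C))
        (h := Quotient.out (ConjClasses.mk (⟨x, hxC⟩ : C)))
        (Quotient.out_eq (ConjClasses.mk (⟨x, hxC⟩ : C))).symm
      exact ⟨c, c.2, _, mem_kSet.2 ((SEl.subtype hxC).2 hx), (congrArg Subtype.val hc).symm⟩)
    fun x hx _ => mem_kSet.2 hx
  rw [hσ'def, Finset.insert_erase hq, ← hσ'def] at hsplit
  have himage : (fun z : G × G => ConjClasses.mk (z.1 * z.2)) ''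
      (((fun X : ConjClasses C => ((Quotient.out X : C) : G)) '' kSet σ' C) ×ˢ (Q : Set G)) =
      f' '' (kSet σ' C ×ˢ (Q : Set G)) := by
    ext D
    constructor
    · rintro ⟨⟨x, y⟩, ⟨⟨X, hX, rfl⟩, hy⟩, rfl⟩
      exact ⟨(X, y), ⟨hX, hy⟩, rfl⟩
    · rintro ⟨⟨X, y⟩, ⟨hX, hy⟩, rfl⟩
      exact ⟨(_, y), ⟨⟨X, hX, rfl⟩, hy⟩, rfl⟩
  rw [himage] at hsplit
  let g : ConjClasses C × G → ConjClasses C × G := fun z =>
    (ConjClasses.mk ⟨b * (Quotient.out z.1 : C) * b⁻¹,
      conj_mem_centralizer hb (Quotient.out z.1).2⟩, b * z.2 * b⁻¹)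
  have hg : ∀ z ∈ kSet σ' C ×ˢ (Q : Set G), g z ∈ kSet σ' C ×ˢ (Q : Set G) := by
    rintro ⟨X, y⟩ ⟨hX, hy⟩
    refine ⟨mem_kSet.2 ((SEl.subtype _).2 ?_), conj_mem hb hy⟩
    refine SEl.of_mk_eq (mk_conj b _).symm ?_
    have : SEl σ' (Quotient.out X : C) := mem_kSet.1 (by
      rw [show ConjClasses.mk (Quotient.out X) = X from Quotient.out_eq X]; exact hX)
    exact (SEl.subtype (Quotient.out X).2).1 this
  have hfg : ∀ z ∈ kSet σ' C ×ˢ (Q : Set G), f' (g z) = f' z := by
    rintro ⟨X, y⟩ ⟨-, hy⟩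
    simp only [hf', g]
    set x := (Quotient.out X : C) with hx
    set x' := (⟨b * (x : G) * b⁻¹, conj_mem_centralizer hb x.2⟩ : C) with hx'
    obtain ⟨c, hc⟩ := exists_conj_of_mk_eq (g := x')
      (h := Quotient.out (ConjClasses.mk x')) (Quotient.out_eq (ConjClasses.mk x')).symm
    have hc' : (c : G) * (b * x * b⁻¹) * (c : G)⁻¹ =
        (Quotient.out (ConjClasses.mk x') : C) := congrArg Subtype.val hc
    rw [← hc', ← mk_conj ((c : G) * b) ((x : G) * y)]
    congr 1
    have hcy : (c : G) * (b * y * b⁻¹) = b * y * b⁻¹ * c :=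
      commute_of_mem_centralizer c.2 (conj_mem hb hy)
    calc (c : G) * (b * x * b⁻¹) * (c : G)⁻¹ * (b * y * b⁻¹)
        = (c : G) * (b * x * b⁻¹) * (c : G)⁻¹ * ((b * y * b⁻¹ * c) * (c : G)⁻¹) := by group
      _ = (c : G) * (b * x * b⁻¹) * (c : G)⁻¹ * (((c : G) * (b * y * b⁻¹)) * (c : G)⁻¹) := by
          rw [hcy]
      _ = _ := by group
  have h2I := image_count_two (Set.toFinite _) f' g hg hfg
  have hQb : q * Nat.card ↥(Q ⊓ centralizer ({b} : Set G)) ≤ Nat.card Q := by
    refine mul_card_le_of_lt (IsPGroup.of_card hQ) inf_le_left ?_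
    by_contra! h'
    exact hbC (mem_centralizer_of_commute fun y hy =>
      (mem_centralizer_singleton_iff.1 (h' y hy).2).symm)
  have hF : q * ((kSet σ' C ×ˢ (Q : Set G)) ∩ {z | g z = z}).ncard ≤
      kc σ' C * q ^ (Nat.card G).factorization q := by
    refine le_trans (Nat.mul_le_mul_left q (Set.ncard_le_ncard
      (t := kSet σ' C ×ˢ ((Q ⊓ centralizer ({b} : Set G) : Subgroup G) : Set G)) ?_)) ?_
    · rintro ⟨X, y⟩ ⟨⟨hX, hy⟩, he⟩
      exact ⟨hX, hy, mem_centralizer_singleton_iff.2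
        (mul_inv_eq_iff_eq_mul.1 (Prod.ext_iff.1 he).2).symm⟩
    · rw [Set.ncard_prod, ← hQ, mul_left_comm, ← Nat.card_coe_set_eq ((_ : Subgroup G) : Set G)]
      exact Nat.mul_le_mul_left _ hQb
  have hAB : (kSet σ' C ×ˢ (Q : Set G)).ncard = kc σ' C * q ^ (Nat.card G).factorization q := by
    rw [Set.ncard_prod, ← hQ, ← Nat.card_coe_set_eq (Q : Set G)]
    rfl
  rw [hAB] at h2I
  obtain ⟨R, hR⟩ := exists_full (G := G) r
  obtain ⟨b', hb', hb'C⟩ := hfus r hr hpr R hR
  have hrσ' : r ∈ σ' := Finset.mem_erase.2 ⟨hrq.ne, hr⟩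
  have h2r : 2 * r * kc σ' G ≤ part σ' (Nat.card G) * (r + 1) := by
    have h1 := two_mul_kc_singleton_le hR hb' hb'C
    have h2 : kc σ' G ≤ kc {r} G * part (σ' \ {r}) (Nat.card G) := by
      have := kc_union_le (G := G) (τ := {r}) (ρ := σ' \ {r})
        fun t ht => hσ' t (Finset.mem_sdiff.1 ht).1
      rwa [Finset.union_sdiff_of_subset (Finset.singleton_subset_iff.2 hrσ')] at this
    rw [part_union (Finset.singleton_subset_iff.2 hrσ'), part_singleton]
    calc 2 * r * kc σ' G ≤ 2 * r * (kc {r} G * part (σ' \ {r}) (Nat.card G)) :=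
          Nat.mul_le_mul_left _ h2
      _ = 2 * r * kc {r} G * part (σ' \ {r}) (Nat.card G) := by ring
      _ ≤ r ^ (Nat.card G).factorization r * (r + 1) * part (σ' \ {r}) (Nat.card G) :=
          Nat.mul_le_mul_right _ h1
      _ = _ := by ring
  rw [hpartσ] at hh
  exact fusion_case hpr hrq (hpart ▸ hge) h2I hF hsplit h2r hh

/-- Many classes of `σ`-elements force a nilpotent Hall `σ`-subgroup. -/
theorem exists_nilpotent_hall :
    ∀ (n : ℕ) {G : Type u} [Group G] [Finite G] (σ : Finset ℕ) (p : ℕ), σ.card = n →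
      (∀ q ∈ σ, q.Prime) → (∀ q ∈ σ, p ≤ q) → part σ (Nat.card G) < p * kc σ G →
      ∃ H : Subgroup G, Nat.card H = part σ (Nat.card G) ∧ Group.IsNilpotent H := by
  intro n
  induction n using Nat.strong_induction_on with
  | _ n ih =>
  intro G _ _ σ p hn hσ hp hh
  have hsub : ∀ q ∈ σ, (σ.erase q).card < n ∧ (∀ t ∈ σ.erase q, t.Prime) ∧
      (∀ t ∈ σ.erase q, p ≤ t) := fun q hq =>
    ⟨hn ▸ Finset.card_erase_lt_of_mem hq, fun t ht => hσ t (Finset.mem_of_mem_erase ht),
      fun t ht => hp t (Finset.mem_of_mem_erase ht)⟩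
  by_cases h1 : n ≤ 1
  · rcases Finset.eq_empty_or_nonempty σ with rfl | ⟨q, hq⟩
    · exact ⟨⊥, by simp [part], inferInstance⟩
    · obtain rfl : σ = {q} :=
        (Finset.card_le_one_iff_subset_singleton.1 (hn ▸ h1)).elim fun a ha => by
          have := Finset.mem_singleton.1 (ha hq)
          subst this
          exact Finset.Subset.antisymm ha (Finset.singleton_subset_iff.2 hq)
      haveI := Fact.mk (hσ q hq)
      obtain ⟨P, hP⟩ := exists_full (G := G) q
      exact ⟨P, by rw [part_singleton, hP], (IsPGroup.of_card hP).isNilpotent⟩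
  by_cases h2 : n = 2
  · subst h2
    obtain ⟨a, b, hab, rfl⟩ := Finset.card_eq_two.1 hn
    have ha : a ∈ ({a, b} : Finset ℕ) := Finset.mem_insert_self a _
    have hb : b ∈ ({a, b} : Finset ℕ) := Finset.mem_insert_of_mem (Finset.mem_singleton_self b)
    haveI := Fact.mk (hσ a ha)
    haveI := Fact.mk (hσ b hb)
    obtain ⟨A, hA⟩ := exists_full (G := G) a
    obtain ⟨B, hB, hBA⟩ := pair_centralizes hσ hp hh ha hb hab hA
    obtain ⟨H, hH, hHn⟩ := join_nilpotent (IsPGroup.of_card hB).isNilpotent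
      (IsPGroup.of_card hA).isNilpotent hBA (by
        rw [hA, hB]
        exact Nat.Coprime.pow _ _ ((Nat.coprime_primes (hσ b hb) (hσ a ha)).2 hab.symm))
    refine ⟨H, ?_, hHn⟩
    rw [hH, hA, hB, part_insert (by simpa using hab), part_singleton, mul_comm]
  by_cases hcase : ∃ q ∈ σ, p < q ∧ ∃ Q : Subgroup G,
      Nat.card Q = q ^ (Nat.card G).factorization q ∧
      normalizer (Q : Set G) ≤ centralizer (Q : Set G)
  · obtain ⟨q, hq, -, Q, hQ, hNC⟩ := hcase
    obtain ⟨hlt, hσ', hp'⟩ := hsub q hq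
    have hh' := hyp_subset (G := G) hσ (Finset.erase_subset q σ) (a := 1) (b := p)
      (by rwa [one_mul])
    rw [one_mul] at hh'
    obtain ⟨K, hK, hKn⟩ := ih _ hlt (σ.erase q) p rfl hσ' hp' hh'
    exact exists_hall_of_normalizer_eq hσ hp hh hq hQ hNC hK hKn
  have hne : σ.Nonempty := Finset.card_pos.1 (by omega)
  set q := σ.max' hne with hqdef
  have hq : q ∈ σ := σ.max'_mem hne
  obtain ⟨r, hr, hrp⟩ := Finset.exists_mem_ne (s := σ.erase q)
    (by rw [Finset.card_erase_of_mem hq]; omega) p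
  obtain ⟨hlt, hσ', hp'⟩ := hsub q hq
  have hrσ := Finset.mem_of_mem_erase hr
  refine exists_hall_of_fusion hσ hp hh hq hrσ (lt_of_le_of_ne (hp r hrσ) hrp.symm)
    (lt_of_le_of_ne (σ.le_max' r hrσ) (Finset.ne_of_mem_erase hr)) ?_
    fun C hC => ih _ hlt (σ.erase q) p rfl hσ' hp' hC
  intro t ht hpt T hT
  by_contra! h
  exact hcase ⟨t, ht, hpt, T, hT, h⟩

end Cfsg.Agent.ManyPi
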