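import Cfsg.Agent.ManyPi.Groups

/-!
Two primes: many classes of `{r, s}`-elements force commuting Sylow subgroups.
-/

set_option autoImplicit false

namespace Cfsg.Agent.ManyPi

open Subgroup
open scoped Pointwise

variable {G : Type*} [Group G]

theorem abelian_of_kc [Finite G] {p q : ℕ} [hq : Fact q.Prime] (hpq : p < q) {S : Subgroup G}
    (hS : Nat.card S = q ^ (Nat.card G).factorization q)
    (h : q ^ (Nat.card G).factorization q < p * kc {q} G) :
    S ≤ centralizer (S : Set G) := by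
  intro x hx
  refine mem_centralizer_of_commute fun y hy => ?_
  exact congrArg Subtype.val (commute_of_many (IsPGroup.of_card hS) hpq
    (hS ▸ h.trans_le (Nat.mul_le_mul_left p (kc_singleton_le_classes hS)))
    (⟨x, hx⟩ : S) ⟨y, hy⟩).eq

/-- The classes of `{r, s}`-elements are bounded by two terms. -/
theorem kc_split [Finite G] {σ : Finset ℕ} {s : ℕ} [hs : Fact s.Prime] {S C0 : Subgroup G}
    (hS : Nat.card S = s ^ (Nat.card G).factorization s) (Y : Set (ConjClasses G))
    {A : Set G} (hA : A ⊆ (C0 : Set G)) (hC0 : C0 ≤ centralizer (S : Set G))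
    (hfull : ∀ x : G, SEl σ x → x ∈ centralizer (S : Set G) →
      ∃ c ∈ centralizer (S : Set G), c * x * c⁻¹ ∈ A)
    (hY : ∀ x : G, SEl σ x →
      ¬ s ^ (Nat.card G).factorization s ∣ Nat.card (centralizer ({x} : Set G)) →
      ConjClasses.mk x ∈ Y) :
    s * kc (insert s σ) G ≤
      s * ((fun z : G × G => ConjClasses.mk (z.1 * z.2)) '' (A ×ˢ (S : Set G))).ncard +
      Y.ncard * s ^ (Nat.card G).factorization s := by
  classical
  set v := (Nat.card G).factorization s with hv
  set I1 := (fun z : G × G => ConjClasses.mk (z.1 * z.2)) '' (A ×ˢ (S : Set G)) with hI1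
  set Y' := {X ∈ Y | ¬ s ^ v ∣ Nat.card (centralizer ({Quotient.out X} : Set G))} with hY'
  choose T hT using fun X : ConjClasses G =>
    exists_sylIn (q := s) (centralizer ({Quotient.out X} : Set G))
  have key : ∀ C ∈ kSet (insert s σ) G, C ∈ I1 ∨
      ∃ X ∈ Y', C ∈ (fun y => ConjClasses.mk (Quotient.out X * y)) '' (T X : Set G) := by
    rintro _ ⟨g, hg, rfl⟩
    obtain ⟨x, y, hc, rfl, hx, hy⟩ := exists_split hs.out hg
    by_cases hf : s ^ v ∣ Nat.card (centralizer ({x} : Set G))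
    · left
      obtain ⟨T', hT'⟩ := exists_sylIn (q := s) (centralizer ({x} : Set G))
      have hT'c : Nat.card T' = s ^ v := by
        rw [hT'.2, le_antisymm (pow_le_pow_factorization hs.out _)
          ((hs.out.pow_dvd_iff_le_factorization Nat.card_pos.ne').1 hf)]
      obtain ⟨u, -, hu⟩ := (SylIn.top hS).exists_conj (T := T') le_top hT'.isPGroup
      have humap : T'.map (MulAut.conj u).toMonoidHom = S := by
        refine eq_of_le_of_card_ge (by rintro _ ⟨t, ht, rfl⟩; exact hu t ht) ?_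
        rw [hS, ← Nat.card_congr (equivMapOfInjective _ _ (MulAut.conj u).injective).toEquiv, hT'c]
      have hxC : u * x * u⁻¹ ∈ centralizer (S : Set G) := by
        refine mem_centralizer_of_commute fun z hz => ?_
        rw [← humap] at hz
        obtain ⟨t, ht, rfl⟩ := hz
        have htx : Commute x t := (mem_centralizer_singleton_iff.1 (hT'.1 ht)).symm
        exact htx.map (MulAut.conj u).toMonoidHom
      obtain ⟨c, -, hcA⟩ := hfull _ (SEl.of_mk_eq (mk_conj u x).symm hx) hxC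
      set x0 := c * (u * x * u⁻¹) * c⁻¹ with hx0
      set y0 := c * (u * y * u⁻¹) * c⁻¹ with hy0
      have hcomm : Commute x0 y0 := by
        have := hc.map (MulAut.conj (c * u)).toMonoidHom
        simpa [hx0, hy0, mul_assoc] using this
      have hSC : S ≤ centralizer ({x0} : Set G) := fun z hz =>
        mem_centralizer_singleton_iff.2
          (commute_of_mem_centralizer (hC0 (hA hcA)) hz).symm.eq
      obtain ⟨d, hd, hdy⟩ := (SylIn.full hs.out hSC hS).1.exists_conj_mem (y := y0)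
        (mem_centralizer_singleton_iff.2 hcomm.symm.eq) ((hy.conj u).conj c)
      refine ⟨(x0, d * y0 * d⁻¹), ⟨hcA, hdy⟩, ?_⟩
      show ConjClasses.mk (x0 * (d * y0 * d⁻¹)) = _
      rw [← mk_conj (d * c * u) (x * y)]
      congr 1
      have hd' := mem_centralizer_singleton_iff.1 hd
      calc x0 * (d * y0 * d⁻¹) = (x0 * d) * y0 * d⁻¹ := by group
        _ = d * x0 * y0 * d⁻¹ := by rw [hd']
        _ = _ := by rw [hx0, hy0]; group
    · right
      obtain ⟨u, hu⟩ := exists_conj_of_mk_eq (g := x) (h := Quotient.out (ConjClasses.mk x))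
        (Quotient.out_eq (ConjClasses.mk x)).symm
      have hy' : u * y * u⁻¹ ∈ centralizer ({Quotient.out (ConjClasses.mk x)} : Set G) :=
        mem_centralizer_singleton_iff.2 (hu ▸ ((hc.map (MulAut.conj u).toMonoidHom).symm.eq))
      obtain ⟨c, hcC, hcy⟩ := (hT (ConjClasses.mk x)).exists_conj_mem hy' (hy.conj u)
      refine ⟨ConjClasses.mk x, ⟨hY x hx hf, ?_⟩, _, hcy, ?_⟩
      · rwa [← hu, card_centralizer_conj]
      show ConjClasses.mk (Quotient.out (ConjClasses.mk x) * (c * (u * y * u⁻¹) * c⁻¹)) = _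
      have hcC' := mem_centralizer_singleton_iff.1 hcC
      rw [← mk_conj (c * u) (x * y), ← hu]
      congr 1
      rw [← hu] at hcC'
      calc u * x * u⁻¹ * (c * (u * y * u⁻¹) * c⁻¹)
          = (u * x * u⁻¹ * c) * (u * y * u⁻¹) * c⁻¹ := by group
        _ = (c * (u * x * u⁻¹)) * (u * y * u⁻¹) * c⁻¹ := by rw [hcC']
        _ = c * u * (x * y) * (c * u)⁻¹ := by group
  have hrest : (kSet (insert s σ) G \ I1).ncard ≤ Y'.ncard * s ^ (v - 1) := by
    refine ncard_cover_le _ _ (fun X hX => ?_) fun C hC => (key C hC.1).resolve_left hC.2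
    refine (Set.ncard_image_le (Set.toFinite _)).trans ?_
    rw [← Nat.card_coe_set_eq]
    show Nat.card (T X) ≤ _
    rw [(hT X).2]
    refine Nat.pow_le_pow_right hs.out.pos ?_
    have := mt (hs.out.pow_dvd_iff_le_factorization Nat.card_pos.ne').2 hX.2
    omega
  have hk : kc (insert s σ) G ≤ I1.ncard + Y'.ncard * s ^ (v - 1) :=
    ((Set.ncard_le_ncard (t := I1 ∪ (kSet (insert s σ) G \ I1)) (by simp) (Set.toFinite _)).trans
      (Set.ncard_union_le _ _)).trans (Nat.add_le_add_left hrest _)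
  have hpow : Y'.ncard * (s * s ^ (v - 1)) ≤ Y.ncard * s ^ v := by
    rcases Nat.eq_zero_or_pos v with h0 | h0
    · have : Y' = ∅ := by
        ext X; simp [hY', h0]
      simp [this]
    · rw [← pow_succ', Nat.sub_add_cancel h0]
      exact Nat.mul_le_mul_right _ (Set.ncard_le_ncard (fun X hX => hX.1) (Set.toFinite _))
  calc s * kc (insert s σ) G ≤ s * (I1.ncard + Y'.ncard * s ^ (v - 1)) := Nat.mul_le_mul_left s hk
    _ = s * I1.ncard + Y'.ncard * (s * s ^ (v - 1)) := by ring
    _ ≤ _ := Nat.add_le_add_left hpow _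

/-- A group normalizing `S` whose Frattini argument provides a fixed element. -/
theorem exists_not_centralizing [Finite G] {r s : ℕ} [hr : Fact r.Prime] [hs : Fact s.Prime]
    (hrs : r < s) {R R0 S : Subgroup G}
    (hR : Nat.card R = r ^ (Nat.card G).factorization r)
    (hS : Nat.card S = s ^ (Nat.card G).factorization s)
    (hR0 : SylIn r R0 (centralizer (S : Set G))) (hle : R0 ≤ R)
    (hnorm : R ≤ normalizer (R0 : Set G)) (hindex : Nat.card R = r * Nat.card R0) :
    ∃ n ∈ normalizer (S : Set G), n ∉ centralizer (S : Set G) := by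
  by_contra! hNC
  obtain ⟨M, hMn, hMi, hMs⟩ := exists_normal_complement hS hNC
  set L := normalizer (R0 : Set G) with hL
  have hRM : R ≤ M := by
    intro x hx
    refine Element.mem_of_coprime_index ?_
    rw [hMi]
    obtain ⟨i, hi⟩ := qEl_of_mem (IsPGroup.of_card hR) hx
    rw [hi]
    exact Nat.Coprime.pow _ _ ((Nat.coprime_primes hr.out hs.out).2 hrs.ne)
  have hRK : SylIn r R (M ⊓ L) := (SylIn.full hr.out (le_inf hRM hnorm) hR).1
  have hLK : ∀ l ∈ L, ∀ x ∈ M ⊓ L, l * x * l⁻¹ ∈ M ⊓ L := fun l hl x hx =>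
    mem_inf.2 ⟨hMn.conj_mem x (mem_inf.1 hx).1 l,
      L.mul_mem (L.mul_mem hl (mem_inf.1 hx).2) (L.inv_mem hl)⟩
  have hd := frattini_dvd hRK inf_le_right hLK
  have hSL : S ≤ L := fun y hy => mem_normalizer_of_conj_mem fun x hx => by
    rw [← (commute_of_mem_centralizer (hR0.1 hx) hy).eq, mul_inv_cancel_right]; exact hx
  obtain ⟨hSsylL, hsL⟩ := SylIn.full hs.out hSL hS
  have hsK : ¬ s ∣ Nat.card ↥(M ⊓ L) := fun h => hMs (h.trans (card_dvd_of_le inf_le_left))
  have hsA : s ^ (Nat.card G).factorization s ∣ Nat.card ↥(L ⊓ normalizer (R : Set G)) :=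
    (((hs.out.coprime_iff_not_dvd).2 hsK).pow_left _).dvd_of_dvd_mul_right (hsL.trans hd)
  obtain ⟨S', hS'⟩ := exists_sylIn (q := s) (L ⊓ normalizer (R : Set G))
  have hS'c : Nat.card S' = s ^ (Nat.card G).factorization s := by
    rw [hS'.2, le_antisymm (pow_le_pow_factorization hs.out _)
      ((hs.out.pow_dvd_iff_le_factorization Nat.card_pos.ne').1 hsA)]
  obtain ⟨c, hcL, hc⟩ := (SylIn.full hs.out (hS'.1.trans inf_le_left) hS'c).1.exists_conj hSL
    hSsylL.isPGroup
  have hcR : ∀ y ∈ S, c * y * c⁻¹ ∈ normalizer (R : Set G) := fun y hy => (hS'.1 (hc y hy)).2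
  have hcR0 : ∀ y ∈ S, ∀ x ∈ R0, Commute (c * y * c⁻¹) x := by
    intro y hy x hx
    have h0 : c⁻¹ * x * c ∈ R0 := by simpa using conj_mem (inv_mem hcL) hx
    have := ((commute_of_mem_centralizer (hR0.1 h0) hy).symm).map (MulAut.conj c).toMonoidHom
    simpa [mul_assoc] using this
  let Ω := {x : G // x ∈ R ∧ x ∉ R0}
  let _ : MulAction S Ω :=
    { smul := fun y x => ⟨(c * y * c⁻¹) * x.1 * (c * y * c⁻¹)⁻¹, conj_mem (hcR y y.2) x.2.1,
        fun h => x.2.2 (by
          have h1 := hcR0 y y.2 _ h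
          have h2 : c * (y : G) * c⁻¹ * x.1 = x.1 * (c * y * c⁻¹) → True := fun _ => trivial
          have h3 : (c * y * c⁻¹)⁻¹ * ((c * y * c⁻¹) * x.1 * (c * y * c⁻¹)⁻¹) * (c * y * c⁻¹)
              = x.1 := by group
          rw [← h3, h1.inv_left.eq, mul_assoc, inv_mul_cancel, mul_one]
          exact h)⟩
      one_smul := fun x => Subtype.ext (by
        show c * ((1 : S) : G) * c⁻¹ * x.1 * (c * ((1 : S) : G) * c⁻¹)⁻¹ = x.1
        simp)
      mul_smul := fun y z x => Subtype.ext (by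
        show c * ((y * z : S) : G) * c⁻¹ * x.1 * (c * ((y * z : S) : G) * c⁻¹)⁻¹ =
          (c * y * c⁻¹) * ((c * z * c⁻¹) * x.1 * (c * z * c⁻¹)⁻¹) * (c * y * c⁻¹)⁻¹
        rw [Subgroup.coe_mul]; group) }
  have hΩ : Nat.card Ω = Nat.card R - Nat.card R0 := by
    rw [show Ω = ↥((R : Set G) \ (R0 : Set G)) from rfl, Nat.card_coe_set_eq,
      Set.ncard_sdiff hle, ← Nat.card_coe_set_eq, ← Nat.card_coe_set_eq]
    rfl
  have hΩs : ¬ s ∣ Nat.card Ω := by
    rw [hΩ, hindex, ← Nat.sub_one_mul, hR0.2]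
    intro h
    rcases (Nat.Prime.dvd_mul hs.out).1 h with h | h
    · exact absurd (Nat.le_of_dvd (Nat.sub_pos_of_lt hr.out.one_lt) h) (by omega)
    · exact hrs.ne' ((Nat.prime_dvd_prime_iff_eq hs.out hr.out).1 (hs.out.dvd_of_dvd_pow h))
  obtain ⟨⟨x, hxR, hxR0⟩, hfix⟩ :=
    (hSsylL.isPGroup).nonempty_fixed_point_of_prime_not_dvd_card Ω hΩs
  have hxC : c⁻¹ * x * c ∈ centralizer (S : Set G) := by
    refine mem_centralizer_of_commute fun y hy => ?_
    have h1 : (c * y * c⁻¹) * x * (c * y * c⁻¹)⁻¹ = x := congrArg Subtype.val (hfix ⟨y, hy⟩)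
    have h2 : Commute (c * y * c⁻¹) x := mul_inv_eq_iff_eq_mul.1 h1
    have := h2.symm.map (MulAut.conj c⁻¹).toMonoidHom
    simpa [mul_assoc] using this
  set T := centralizer (S : Set G) ⊓ R.map (MulAut.conj c⁻¹).toMonoidHom with hT
  have hTp : IsPGroup r T := ((IsPGroup.of_card hR).map _).to_le inf_le_right
  have hR0T : R0 ≤ T := fun z hz => ⟨hR0.1 hz, c * z * c⁻¹, hle (conj_mem hcL hz), by simp [mul_assoc]⟩
  have hxT : c⁻¹ * x * c ∈ T := ⟨hxC, x, hxR, by simp [mul_assoc]⟩
  have hnot : c⁻¹ * x * c ∉ R0 := fun h => hxR0 (by simpa [mul_assoc] using conj_mem hcL h)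
  obtain ⟨d, -, hd⟩ := hR0.exists_conj (T := T) inf_le_left hTp
  have h1 : Nat.card T ≤ Nat.card R0 := by
    refine le_trans (le_of_eq ?_)
      (Subgroup.card_le_of_le (H := T.map (MulAut.conj d).toMonoidHom) (K := R0)
        (by rintro _ ⟨t, ht, rfl⟩; exact hd t ht))
    exact Nat.card_congr (equivMapOfInjective _ _ (MulAut.conj d).injective).toEquiv
  exact hnot ((eq_of_le_of_card_ge hR0T h1).symm ▸ hxT)

theorem small_case {r s k I y ρ N σS : ℕ} (hr : 1 ≤ r) (hrs : r < s) (h : N * σS < r * k)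
    (hsplit : s * k ≤ s * I + y * σS) (hI : I ≤ ρ * σS) (hy : y + ρ ≤ N) (hρ : r ^ 2 * ρ ≤ N) :
    False := by
  obtain ⟨t, rfl⟩ : ∃ t, s = r + 1 + t := ⟨s - r - 1, by omega⟩
  obtain ⟨w, rfl⟩ : ∃ w, N = r ^ 2 * ρ + w := ⟨N - r ^ 2 * ρ, by omega⟩
  have h1 : r * ((r + 1 + t) * k) ≤ r * (r + 1 + t) * (ρ * σS) + r * (y * σS) :=
    (Nat.mul_le_mul_left r hsplit).trans
      (by nlinarith [Nat.mul_le_mul_left (r * (r + 1 + t)) hI])
  have h2 : r * ((y + ρ) * σS) ≤ r * ((r ^ 2 * ρ + w) * σS) :=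
    Nat.mul_le_mul_left r (Nat.mul_le_mul_right σS hy)
  have h3 : (r + 1 + t) * ((r ^ 2 * ρ + w) * σS + 1) ≤ (r + 1 + t) * (r * k) :=
    Nat.mul_le_mul_left _ h
  have h4 : (r + t) * (r * ρ * σS) ≤ (1 + t) * (r * r * ρ * σS) := by
    have : r + t ≤ (1 + t) * r := by nlinarith
    calc (r + t) * (r * ρ * σS) ≤ (1 + t) * r * (r * ρ * σS) := Nat.mul_le_mul_right _ this
      _ = _ := by ring
  have h5 : (1 + t) * (r * r * ρ * σS) ≤ (1 + t) * ((r ^ 2 * ρ + w) * σS) :=
    Nat.mul_le_mul_left _ (Nat.mul_le_mul_right _ (by nlinarith))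
  nlinarith

theorem last_case {u s k I F y ρ σS : ℕ} (hs : u + 2 ≤ s) (h : (u + 1) * ρ * σS < (u + 1) * k)
    (hsplit : s * k ≤ s * I + y * σS) (h2I : (u + 1) * I ≤ ρ * σS + u * F)
    (h3 : s * F ≤ ρ * σS) (hy : y + ρ ≤ (u + 1) * ρ) : False := by
  have hk : ρ * σS + 1 ≤ k := by
    by_contra hlt
    have h0 : k ≤ ρ * σS := by omega
    have h1 := Nat.mul_le_mul_left (u + 1) h0
    rw [← mul_assoc] at h1
    omega
  have hy' : y ≤ u * ρ := by linarith
  have e1 : (u + 1) * (s * k) ≤ (u + 1) * (s * I + y * σS) := Nat.mul_le_mul_left _ hsplit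
  have e2 : s * ((u + 1) * I) ≤ s * (ρ * σS + u * F) := Nat.mul_le_mul_left s h2I
  have e3 : u * (s * F) ≤ u * (ρ * σS) := Nat.mul_le_mul_left u h3
  have e4 : (u + 1) * (y * σS) ≤ (u + 1) * (u * ρ * σS) :=
    Nat.mul_le_mul_left _ (Nat.mul_le_mul_right σS hy')
  have e5 : u * (u + 2) * (ρ * σS) ≤ u * s * (ρ * σS) :=
    Nat.mul_le_mul_right _ (Nat.mul_le_mul_left u hs)
  have e6 : (u + 1) * s * (ρ * σS + 1) ≤ (u + 1) * s * k := Nat.mul_le_mul_left _ hk
  have e7 : 0 < (u + 1) * s := Nat.mul_pos (Nat.succ_pos u) (by omega)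
  linarith

/-- Two primes `r < s`: if the number of classes of `{r, s}`-elements exceeds `|R||S|/r`, then
some Sylow subgroups commute. -/
theorem pair_lemma [Finite G] {r s : ℕ} [hr : Fact r.Prime] [hs : Fact s.Prime] (hrs : r < s)
    (h : r ^ (Nat.card G).factorization r * s ^ (Nat.card G).factorization s < r * kc {r, s} G) :
    ∃ R S : Subgroup G, Nat.card R = r ^ (Nat.card G).factorization r ∧
      Nat.card S = s ^ (Nat.card G).factorization s ∧ R ≤ centralizer (S : Set G) := by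
  classical
  obtain ⟨S, hS⟩ := exists_full (G := G) s
  obtain ⟨R0, hR0⟩ := exists_sylIn (q := r) (centralizer (S : Set G))
  obtain ⟨R, hR', hle⟩ := exists_sylIn_ge (le_top : R0 ≤ ⊤) hR0.isPGroup
  have hR : Nat.card R = r ^ (Nat.card G).factorization r := by rw [hR'.2, card_top]
  have hRp : IsPGroup r R := IsPGroup.of_card hR
  by_cases heq : Nat.card R0 = Nat.card R
  · exact ⟨R0, S, heq.trans hR, hS, hR0.1⟩
  exfalso
  have hSab : S ≤ centralizer (S : Set G) := by
    refine abelian_of_kc hrs hS ?_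
    have h1 : kc {r, s} G ≤ kc {s} G * r ^ (Nat.card G).factorization r :=
      kc_insert_le hr.out
    have h2 := lt_of_lt_of_le h (Nat.mul_le_mul_left r h1)
    rw [← mul_assoc, mul_comm (r ^ _) (s ^ _)] at h2
    exact Nat.lt_of_mul_lt_mul_right h2
  have hlt : Nat.card R0 < Nat.card R := lt_of_le_of_ne (card_le_of_le hle) heq
  have hneR : ∃ x ∈ R, x ∉ R0 := by
    by_contra! h'
    exact heq (le_antisymm hlt.le (card_le_of_le h'))
  have hrR0 : r * Nat.card R0 ≤ Nat.card R := mul_card_le_of_lt hRp hle hneR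
  set f : G × G → ConjClasses G := fun z => ConjClasses.mk (z.1 * z.2) with hf
  set A : Set G := {x ∈ (R : Set G) |
    ¬ s ^ (Nat.card G).factorization s ∣ Nat.card (centralizer ({x} : Set G))} with hA
  set Y := ConjClasses.mk '' A with hY
  have hsplit : s * kc {r, s} G ≤ s * (f '' ((R0 : Set G) ×ˢ (S : Set G))).ncard +
      Y.ncard * s ^ (Nat.card G).factorization s := by
    rw [Finset.pair_comm]
    refine kc_split (σ := {r}) hS Y subset_rfl hR0.1 (fun x hx hxC => ?_) fun x hx hxf => ?_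
    · exact hR0.exists_conj_mem hxC ((sel_singleton hr.out).1 hx)
    · obtain ⟨c, -, hc⟩ := (SylIn.top hR).exists_conj_mem (mem_top x) ((sel_singleton hr.out).1 hx)
      exact ⟨_, ⟨hc, by rwa [card_centralizer_conj]⟩, mk_conj c x⟩
  have hA0 : A ⊆ (R : Set G) \ (R0 : Set G) := fun x hx => ⟨hx.1, fun hx0 => hx.2
    (SylIn.full hs.out (fun y hy => mem_centralizer_singleton_iff.2
      (commute_of_mem_centralizer (hR0.1 hx0) hy).symm.eq) hS).2⟩
  have hAcard : A.ncard + Nat.card R0 ≤ Nat.card R := by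
    rw [← SetLike.coe_sort_coe R0, ← SetLike.coe_sort_coe R, Nat.card_coe_set_eq,
      Nat.card_coe_set_eq, ← Set.ncard_union_eq (Set.disjoint_left.2 fun x hx => (hA0 hx).2)]
    exact Set.ncard_le_ncard (Set.union_subset (fun x hx => hx.1) hle)
  have hAinv : ∀ z ∈ normalizer (R : Set G), ∀ a ∈ A, z * a * z⁻¹ ∈ A := fun z hz a ha =>
    ⟨conj_mem hz ha.1, by rw [card_centralizer_conj]; exact ha.2⟩
  have hYle : Y.ncard ≤ A.ncard := Set.ncard_image_le (Set.toFinite _)
  have hI1le : (f '' ((R0 : Set G) ×ˢ (S : Set G))).ncard ≤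
      Nat.card R0 * s ^ (Nat.card G).factorization s := by
    refine (Set.ncard_image_le (Set.toFinite _)).trans (le_of_eq ?_)
    rw [Set.ncard_prod, ← Nat.card_coe_set_eq, ← Nat.card_coe_set_eq, ← hS]
    rfl
  rw [← hR] at h
  have hSpos : 0 < s ^ (Nat.card G).factorization s := pow_pos hs.out.pos _
  rcases le_or_gt (r ^ 2 * Nat.card R0) (Nat.card R) with hsmall | hbig
  · exact small_case hr.out.one_le hrs h hsplit hI1le
      ((Nat.add_le_add_right hYle _).trans hAcard) hsmall
  -- now the index is exactly `r`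
  have hindex : Nat.card R = r * Nat.card R0 := by
    obtain ⟨i, hi⟩ := IsPGroup.iff_card.1 hRp
    rw [hR0.2, hi] at hrR0 hbig ⊢
    rw [← pow_succ'] at hrR0 ⊢
    rw [← pow_add] at hbig
    have h1 := (Nat.pow_le_pow_iff_right hr.out.one_lt).1 hrR0
    have h2 := (Nat.pow_lt_pow_iff_right hr.out.one_lt).1 hbig
    congr 1; omega
  have hnorm : R ≤ normalizer (R0 : Set G) := by
    have : (R0.subgroupOf R).Normal := by
      refine normal_of_index_eq_minFac_card ?_
      have hidx : (R0.subgroupOf R).index = r := by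
        have := card_mul_index (R0.subgroupOf R)
        rw [Nat.card_congr (subgroupOfEquivOfLe hle).toEquiv, hindex, mul_comm r] at this
        exact Nat.eq_of_mul_eq_mul_left Nat.card_pos this
      rw [hidx]
      obtain ⟨i, hi⟩ := IsPGroup.iff_card.1 hRp
      have hi0 : i ≠ 0 := by
        rintro rfl
        rw [hindex, pow_zero] at hi
        exact hr.out.one_lt.ne' (Nat.eq_one_of_mul_eq_one_right hi)
      rw [hi, Nat.pow_minFac hi0, hr.out.minFac_eq]
    intro z hz
    exact mem_normalizer_of_conj_mem fun x hx => this.conj_mem ⟨x, hle hx⟩ hx ⟨z, hz⟩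
  obtain ⟨n, hnN, hnC⟩ := exists_not_centralizing hrs hR hS hR0 hle hnorm hindex
  obtain ⟨c, hc, hcn⟩ := exists_mul_mem_normalizer hR0 (n := n)
    fun x hx => conj_mem_centralizer hnN (hR0.1 hx)
  have hcN : c * n ∈ normalizer (S : Set G) := mul_mem
    (centralizer_le_normalizer _ hc) hnN
  have hcC : c * n ∉ centralizer (S : Set G) := fun h' => hnC (by
    simpa using mul_mem (inv_mem hc) h')
  have hfix : ∀ b : G, b ∈ normalizer (S : Set G) → b ∉ centralizer (S : Set G) →
      s * (((R0 : Set G) ×ˢ (S : Set G)) ∩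
        {z : G × G | (b * z.1 * b⁻¹, b * z.2 * b⁻¹) = z}).ncard ≤
      Nat.card R0 * s ^ (Nat.card G).factorization s := by
    intro b hbN hbC
    have h1 : s * Nat.card ↥(S ⊓ centralizer ({b} : Set G)) ≤ Nat.card S := by
      refine mul_card_le_of_lt (IsPGroup.of_card hS) inf_le_left ?_
      by_contra! h'
      exact hbC (mem_centralizer_of_commute fun y hy =>
        (mem_centralizer_singleton_iff.1 (h' y hy).2).symm)
    refine le_trans (Nat.mul_le_mul_left s (Set.ncard_le_ncard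
      (t := (R0 : Set G) ×ˢ ((S ⊓ centralizer ({b} : Set G) : Subgroup G) : Set G)) ?_)) ?_
    · rintro ⟨x, y⟩ ⟨⟨hx, hy⟩, he⟩
      refine ⟨hx, hy, mem_centralizer_singleton_iff.2 ?_⟩
      exact (mul_inv_eq_iff_eq_mul.1 (Prod.ext_iff.1 he).2).symm
    · rw [Set.ncard_prod, ← Nat.card_coe_set_eq, ← Nat.card_coe_set_eq, ← hS,
        mul_comm (Nat.card _), ← mul_assoc, mul_comm (Nat.card R0)]
      exact Nat.mul_le_mul_right _ h1
  have hginv : ∀ b : G, b ∈ normalizer (S : Set G) → b ∈ normalizer (R0 : Set G) →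
      (∀ z ∈ (R0 : Set G) ×ˢ (S : Set G),
        (b * z.1 * b⁻¹, b * z.2 * b⁻¹) ∈ (R0 : Set G) ×ˢ (S : Set G)) ∧
      ∀ z ∈ (R0 : Set G) ×ˢ (S : Set G), f (b * z.1 * b⁻¹, b * z.2 * b⁻¹) = f z :=
    fun b hbS hbR => ⟨fun z hz => ⟨conj_mem hbR hz.1, conj_mem hbS hz.2⟩, fun z _ => by
      simp only [hf]
      rw [← mk_conj b (z.1 * z.2)]
      congr 1
      group⟩
  have hAB : ((R0 : Set G) ×ˢ (S : Set G)).ncard =
      Nat.card R0 * s ^ (Nat.card G).factorization s := by
    rw [Set.ncard_prod, ← Nat.card_coe_set_eq, ← Nat.card_coe_set_eq, ← hS]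
    rfl
  by_cases hgood : (∃ a ∈ R, ∃ b ∈ R, ¬ Commute a b) ∨
      ∃ z ∈ normalizer (R : Set G), z ∉ centralizer (R : Set G)
  · -- the non-full classes meet `R \ R0` in at most half of `R`
    have h2Y : 2 * Y.ncard ≤ Nat.card R := by
      rcases hgood with ⟨a, ha, b, hb, hab⟩ | ⟨z, hz, hzC⟩
      · have h1 := image_count_pGroup hRp ConjClasses.mk (fun x hx => hx.1)
          (fun w hw x hx => hAinv w (le_normalizer hw) x hx) (fun w _ x _ => mk_conj w x)
        rw [← hY] at h1
        have h2 := sq_mul_card_center_le hRp ha hb hab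
        have := hr.out.two_le
        generalize Nat.card ↥(R ⊓ centralizer (R : Set G)) = Z at h1 h2
        generalize Y.ncard = y at h1 ⊢
        generalize A.ncard = a' at h1 hAcard
        generalize Nat.card R0 = ρ at hAcard hindex
        generalize Nat.card R = N at h2 hAcard hindex ⊢
        obtain ⟨u, rfl⟩ : ∃ u, r = u + 1 := ⟨r - 1, by omega⟩
        rw [Nat.add_sub_cancel] at h1
        nlinarith [Nat.mul_le_mul_left ((u + 1) ^ 2) h1, Nat.mul_le_mul_left u h2,
          Nat.mul_le_mul_left ((u + 1) ^ 2) hAcard, Nat.mul_le_mul_left N this]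
      · have h1 := image_count_two (Set.toFinite A) ConjClasses.mk (fun x => z * x * z⁻¹)
          (hAinv z hz) (fun x _ => mk_conj z x)
        rw [← hY] at h1
        have h2 : r * Nat.card ↥(R ⊓ centralizer ({z} : Set G)) ≤ Nat.card R := by
          refine mul_card_le_of_lt hRp inf_le_left ?_
          by_contra! h'
          exact hzC (mem_centralizer_of_commute fun y hy =>
            (mem_centralizer_singleton_iff.1 (h' y hy).2).symm)
        have h3 : (A ∩ {x | z * x * z⁻¹ = x}).ncard ≤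
            Nat.card ↥(R ⊓ centralizer ({z} : Set G)) := by
          rw [← SetLike.coe_sort_coe, Nat.card_coe_set_eq]
          exact Set.ncard_le_ncard fun x hx =>
            ⟨hx.1.1, mem_centralizer_singleton_iff.2 (mul_inv_eq_iff_eq_mul.1 hx.2).symm⟩
        have := hr.out.pos
        nlinarith [Nat.mul_le_mul_left r h1, Nat.mul_le_mul_left r h3,
          Nat.mul_le_mul_left r hAcard]
    have h2I := image_count_two (Set.toFinite _) f
      (fun z : G × G => (c * n * z.1 * (c * n)⁻¹, c * n * z.2 * (c * n)⁻¹))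
      (hginv _ hcN hcn).1 (hginv _ hcN hcn).2
    rw [hAB] at h2I
    have h3 := hfix _ hcN hcC
    have := hr.out.two_le
    generalize s ^ (Nat.card G).factorization s = σS at *
    generalize kc {r, s} G = k at *
    generalize (f '' ((R0 : Set G) ×ˢ (S : Set G))).ncard = I at *
    generalize (((R0 : Set G) ×ˢ (S : Set G)) ∩ _).ncard = F at h2I h3
    generalize Y.ncard = y at *
    generalize Nat.card R0 = ρ at *
    rw [hindex] at h h2Y
    nlinarith [Nat.mul_le_mul_left s h2I, Nat.mul_le_mul_right σS h2Y,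
      Nat.mul_le_mul_left r hsplit, Nat.mul_le_mul_left (r * ρ * σS) (Nat.succ_le_of_lt hrs)]
  · -- `R` is abelian and `N(R) = C(R)`
    push Not at hgood
    obtain ⟨M, hMn, hMi, hMr⟩ := exists_normal_complement hR hgood.2
    have hSM : S ≤ M := by
      intro x hx
      refine Element.mem_of_coprime_index ?_
      rw [hMi]
      obtain ⟨i, hi⟩ := qEl_of_mem (IsPGroup.of_card hS) hx
      rw [hi]
      exact Nat.Coprime.pow _ _ ((Nat.coprime_primes hs.out hr.out).2 hrs.ne')
    have hd := frattini_dvd (SylIn.full hs.out hSM hS).1 (le_top : M ≤ ⊤)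
      (fun l _ x hx => hMn.conj_mem x hx l)
    rw [top_inf_eq, card_top] at hd
    have hrN : Nat.card R ∣ Nat.card (normalizer (S : Set G)) := by
      have hcop : (Nat.card R).Coprime (Nat.card M) :=
        hR ▸ ((hr.out.coprime_iff_not_dvd).2 hMr).pow_left _
      exact hcop.dvd_of_dvd_mul_right (R.card_subgroup_dvd_card.trans hd)
    obtain ⟨T, hT⟩ := exists_sylIn (q := r) (normalizer (S : Set G))
    obtain ⟨m, hmT, hmC⟩ : ∃ m ∈ T, m ∉ centralizer (S : Set G) := by
      by_contra! h'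
      obtain ⟨d, -, hd'⟩ := hR0.exists_conj (T := T) h' hT.isPGroup
      have h1 : Nat.card T ≤ Nat.card R0 := by
        refine le_trans (le_of_eq ?_)
          (Subgroup.card_le_of_le (H := T.map (MulAut.conj d).toMonoidHom) (K := R0)
            (by rintro _ ⟨t, ht, rfl⟩; exact hd' t ht))
        exact Nat.card_congr (equivMapOfInjective _ _ (MulAut.conj d).injective).toEquiv
      have h2 : Nat.card R ≤ Nat.card T := by
        rw [hT.2, hR]
        refine Nat.pow_le_pow_right hr.out.pos ?_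
        rw [hR] at hrN
        exact (hr.out.pow_dvd_iff_le_factorization Nat.card_pos.ne').1 hrN
      omega
    obtain ⟨i, hmi⟩ := qEl_of_mem hT.isPGroup hmT
    obtain ⟨d, hd', hdm⟩ := exists_mul_mem_normalizer hR0 (n := m)
      fun x hx => conj_mem_centralizer (hT.1 hmT) (hR0.1 hx)
    have hdN : d * m ∈ normalizer (S : Set G) :=
      mul_mem (centralizer_le_normalizer _ hd') (hT.1 hmT)
    set b := Element.pPart r (d * m) with hb
    obtain ⟨j, hj⟩ := Subgroup.mem_zpowers_iff.1 (Element.pPart_mem_zpowers r (d * m))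
    have hbN : b ∈ normalizer (S : Set G) := hb ▸ hj ▸ zpow_mem hdN j
    have hbR : b ∈ normalizer (R0 : Set G) := hb ▸ hj ▸ zpow_mem hdm j
    have hbC : b ∉ centralizer (S : Set G) := by
      intro hbC
      let N := normalizer (S : Set G)
      let φ := S.normalizerMonoidHom
      have hker : ∀ w : N, φ w = 1 ↔ (w : G) ∈ centralizer (S : Set G) := by
        intro w
        rw [← MonoidHom.mem_ker, Subgroup.normalizerMonoidHom_ker]
        rfl
      have e1 : φ ⟨d * m, hdN⟩ = φ ⟨m, hT.1 hmT⟩ := by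
        rw [show (⟨d * m, hdN⟩ : N) = ⟨d, centralizer_le_normalizer _ hd'⟩ * ⟨m, hT.1 hmT⟩ from rfl,
          map_mul, (hker _).2 hd', one_mul]
      have hdvd : orderOf (φ ⟨m, hT.1 hmT⟩) ∣ r ^ i :=
        ((Subgroup.orderOf_mk m (hT.1 hmT)).trans hmi) ▸ orderOf_map_dvd φ ⟨m, hT.1 hmT⟩
      obtain ⟨i', -, hi'⟩ := (Nat.dvd_prime_pow hr.out).1 hdvd
      have e2 : ((Element.pPart r (⟨d * m, hdN⟩ : N) : N) : G) = b :=
        (Element.map_pPart hr.out N.subtype _).1
      have e3 : φ (Element.pPart r (⟨d * m, hdN⟩ : N)) = 1 := (hker _).2 (e2 ▸ hbC)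
      rw [(Element.map_pPart hr.out φ _).1, e1, (Element.pPart_eq_self hr.out hi').1] at e3
      exact hmC ((hker _).1 e3)
    obtain ⟨e, he⟩ : ∃ e, orderOf b = r ^ e :=
      ⟨_, Element.orderOf_pPart_eq_pow hr.out (d * m)⟩
    have h2I := image_count_prime (Set.toFinite _) f
      (fun z : G × G => (b * z.1 * b⁻¹, b * z.2 * b⁻¹)) (n := e) hr.out
      (fun z => by rw [prod_conj_iterate, ← he, pow_orderOf_eq_one]; simp)
      (hginv _ hbN hbR).1 (hginv _ hbN hbR).2
    rw [hAB] at h2I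
    have h3 := hfix _ hbN hbC
    have := hr.out.two_le
    generalize s ^ (Nat.card G).factorization s = σS at *
    generalize kc {r, s} G = k at *
    generalize (f '' ((R0 : Set G) ×ˢ (S : Set G))).ncard = I at *
    generalize (((R0 : Set G) ×ˢ (S : Set G)) ∩ _).ncard = F at h2I h3
    generalize Y.ncard = y at *
    generalize A.ncard = a' at *
    generalize Nat.card R0 = ρ at *
    rw [hindex] at h hAcard
    obtain ⟨u, rfl⟩ : ∃ u, r = u + 1 := ⟨r - 1, by omega⟩
    rw [Nat.add_sub_cancel] at h2I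
    exact last_case hrs h hsplit h2I h3 ((Nat.add_le_add_right hYle _).trans hAcard)

end Cfsg.Agent.ManyPi
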